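import Cfsg.Agent.H984.K547.Tool

/-!
# `D3` for split cyclic extensions (S4547, helper984)

`d3_split`: `Γ = N ⟨t⟩`, `⟨t⟩ ∩ N = 1`, `t` of even order, `M ≤ N` of odd index normalised by `t`, `K ≤ M` containing the
squares of `M` and `[t, M]`, `|M : K| ≥ 4`: then `D3 Γ`.
-/

set_option autoImplicit false

namespace Cfsg.Agent.H984.K547.Split

open Subgroup Cfsg.Agent.H821.K547 Cfsg.Agent.H984.K547.Tool

universe u

theorem d3_target : D3 (Multiplicative (Fin 3 → ZMod 2)) := by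
  have h2 : Fact (Nat.Prime 2) := ⟨Nat.prime_two⟩
  intro Q
  have hsq : ∀ v : Multiplicative (Fin 3 → ZMod 2), v ^ 2 = 1 := by
    intro v
    rw [pow_two]
    apply Multiplicative.toAdd.injective
    funext i
    exact CharTwo.add_self_eq_zero _
  have hP : IsPGroup 2 (⊤ : Subgroup (Multiplicative (Fin 3 → ZMod 2))) := by
    rintro ⟨v, hv⟩
    exact ⟨1, Subtype.ext (by rw [pow_one]; exact hsq v)⟩
  have hQ : (⊤ : Subgroup (Multiplicative (Fin 3 → ZMod 2))) = Q := Q.is_maximal' hP le_top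
  refine ⟨(Q : Subgroup (Multiplicative (Fin 3 → ZMod 2))).subtype, fun v => ?_⟩
  exact ⟨⟨v, hQ ▸ mem_top v⟩, rfl⟩

variable {G : Type u} [Group G] [Finite G]

/-- the split lemma -/
theorem d3_split (N : Subgroup G) [N.Normal] (t : G) (M : Subgroup G) (hMN : M ≤ N) (hodd : ¬ 2 ∣ M.relIndex N)
    (hdisj : ∀ j : ℤ, t ^ j ∈ N → t ^ j = 1) (h2 : 2 ∣ orderOf t) (K : Subgroup G) (hKM : K ≤ M)
    (hKsq : ∀ x ∈ M, x ^ 2 ∈ K) (hKt : ∀ x ∈ M, t * x * t⁻¹ * x⁻¹ ∈ K) (hidx : 4 ≤ K.relIndex M) :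
    D3 (N ⊔ zpowers t : Subgroup G) := by
  have htM : ∀ x ∈ M, t * x * t⁻¹ ∈ M := by
    intro x hx
    have h1 := mul_mem (hKM (hKt x hx)) hx
    rwa [inv_mul_cancel_right] at h1
  have htK : ∀ x ∈ K, t * x * t⁻¹ ∈ K := by
    intro x hx
    have h1 := mul_mem (hKt x (hKM hx)) hx
    rwa [inv_mul_cancel_right] at h1
  -- conjugation by powers of `t`
  have hpow : ∀ (n : ℕ) (x : G), x ∈ M → t ^ n * x * (t ^ n)⁻¹ * x⁻¹ ∈ K := by
    intro n
    induction n with
    | zero =>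
      intro x _
      rw [pow_zero, one_mul, inv_one, mul_one, mul_inv_cancel]
      exact one_mem K
    | succ n ih =>
      intro x hx
      have h1 := ih x hx
      have h3 : t ^ (n + 1) * x * (t ^ (n + 1))⁻¹ * x⁻¹ =
          (t * (t ^ n * x * (t ^ n)⁻¹ * x⁻¹) * t⁻¹) * (t * x * t⁻¹ * x⁻¹) := by
        rw [pow_succ']
        group
      rw [h3]
      exact mul_mem (htK _ h1) (hKt x hx)
  have hz : ∀ (g : G), g ∈ zpowers t → ∃ n : ℕ, g = t ^ n := by
    intro g hg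
    obtain ⟨n, hn⟩ := (mem_powers_iff_mem_zpowers).2 hg
    exact ⟨n, hn.symm⟩
  have hnormM : zpowers t ≤ normalizer (M : Set G) := by
    rw [zpowers_le]
    apply mem_normalizer_fintype
    exact htM
  have hnormK : zpowers (t ^ 2) ≤ normalizer (K : Set G) := by
    rw [zpowers_le]
    apply pow_mem
    apply mem_normalizer_fintype
    exact htK
  set P := M ⊔ zpowers t with hPdef
  set L := K ⊔ zpowers (t ^ 2) with hLdef
  have hLP : L ≤ P := sup_le_sup hKM (by rw [zpowers_le]; exact pow_mem (mem_zpowers t) 2)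
  have hPmem : ∀ y ∈ P, ∃ x ∈ M, ∃ n : ℕ, y = x * t ^ n := by
    intro y hy
    have h1 : (y : G) ∈ ((M ⊔ zpowers t : Subgroup G) : Set G) := hy
    rw [coe_mul_of_right_le_normalizer_left M (zpowers t) hnormM] at h1
    obtain ⟨x, hx, s, hs, rfl⟩ := h1
    obtain ⟨n, rfl⟩ := hz s hs
    exact ⟨x, hx, n, rfl⟩
  -- squares
  have hsq : ∀ y ∈ P, y ^ 2 ∈ L := by
    intro y hy
    obtain ⟨x, hx, n, rfl⟩ := hPmem y hy
    have h1 := hpow n x hx
    have h3 : (x * t ^ n) ^ 2 = (x * (t ^ n * x * (t ^ n)⁻¹ * x⁻¹) * x⁻¹) * x ^ 2 * (t ^ 2) ^ n := by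
      rw [← pow_mul, mul_comm 2 n, pow_mul, pow_two (t ^ n), pow_two, pow_two]
      group
    have h4 : x * (t ^ n * x * (t ^ n)⁻¹ * x⁻¹) * x⁻¹ ∈ K := by
      -- `K` is normal in `M`
      have hk := hKM h1
      set k := t ^ n * x * (t ^ n)⁻¹ * x⁻¹ with hkdef
      have h5 : x * k * x⁻¹ = (x * k) ^ 2 * (k ^ 2 * (k⁻¹ * (x ^ 2) * k))⁻¹ * k := by
        rw [pow_two, pow_two, pow_two]
        group
      have h6 : k⁻¹ * x ^ 2 * k ∈ K := mul_mem (mul_mem (inv_mem h1) (hKsq x hx)) h1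
      rw [h5]
      refine mul_mem (mul_mem (hKsq _ (mul_mem hx hk)) (inv_mem (mul_mem (pow_mem h1 2) h6))) h1
    rw [h3]
    exact mul_mem (le_sup_left (b := zpowers (t ^ 2)) (mul_mem h4 (hKsq x hx)))
      (le_sup_right (a := K) (pow_mem (mem_zpowers (t ^ 2)) n))
  -- the index
  have hinf : ∀ x ∈ M, ∀ s ∈ zpowers t, x = s → s = 1 := by
    rintro x hx _ ⟨j, rfl⟩ e
    have e' : x = t ^ j := e
    rw [e'] at hx
    exact hdisj j (hMN hx)
  have hcP : Nat.card M * Nat.card (zpowers t) ≤ Nat.card P := by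
    rw [← Nat.card_prod]
    refine Nat.card_le_card_of_injective (fun a : M × zpowers t =>
      (⟨(a.1 : G) * a.2, mul_mem (le_sup_left (b := zpowers t) a.1.2) (le_sup_right (a := M) a.2.2)⟩ : P)) ?_
    rintro ⟨a, b⟩ ⟨a', b'⟩ hab
    have h1 : (a : G) * b = a' * b' := congrArg Subtype.val hab
    have h3 : (a' : G)⁻¹ * a = b' * (b : G)⁻¹ := by
      rw [inv_mul_eq_iff_eq_mul, ← mul_assoc, ← h1, mul_assoc, mul_inv_cancel, mul_one]
    have h4 := hinf _ (mul_mem (inv_mem a'.2) a.2) _ (mul_mem b'.2 (inv_mem b.2)) h3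
    have h5 : (b' : G) = b := mul_inv_eq_one.1 h4
    rw [h4] at h3
    have h6 : (a' : G) = a := inv_mul_eq_one.1 h3
    exact Prod.ext (Subtype.ext h6.symm) (Subtype.ext h5.symm)
  have hcL : Nat.card L ≤ Nat.card K * Nat.card (zpowers (t ^ 2)) := by
    rw [← Nat.card_prod]
    refine Nat.card_le_card_of_surjective (fun a : K × zpowers (t ^ 2) =>
      (⟨(a.1 : G) * a.2, mul_mem (le_sup_left (b := zpowers (t ^ 2)) a.1.2) (le_sup_right (a := K) a.2.2)⟩ : L)) ?_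
    rintro ⟨y, hy⟩
    have h1 : (y : G) ∈ ((K ⊔ zpowers (t ^ 2) : Subgroup G) : Set G) := hy
    rw [coe_mul_of_right_le_normalizer_left K (zpowers (t ^ 2)) hnormK] at h1
    obtain ⟨x, hx, s, hs, rfl⟩ := h1
    exact ⟨(⟨x, hx⟩, ⟨s, hs⟩), rfl⟩
  have hct : Nat.card (zpowers (t ^ 2)) * 2 = Nat.card (zpowers t) := by
    rw [Nat.card_zpowers, Nat.card_zpowers, orderOf_pow, Nat.gcd_eq_right h2, Nat.div_mul_cancel h2]
  have hcM : Nat.card K * K.relIndex M = Nat.card M := by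
    rw [← relIndex_bot_left, ← relIndex_bot_left]
    exact relIndex_mul_relIndex ⊥ K M bot_le hKM
  have hcLP : Nat.card L * L.relIndex P = Nat.card P := by
    rw [← relIndex_bot_left, ← relIndex_bot_left]
    exact relIndex_mul_relIndex ⊥ L P bot_le hLP
  have h8 : 8 ≤ L.relIndex P := by
    by_contra hcon
    have hpos : 0 < Nat.card L := Nat.card_pos
    have h9 : Nat.card L * L.relIndex P < Nat.card L * 8 := Nat.mul_lt_mul_of_pos_left (by omega) hpos
    have h10 : Nat.card L * 8 ≤ Nat.card M * Nat.card (zpowers t) := by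
      calc Nat.card L * 8 ≤ Nat.card K * Nat.card (zpowers (t ^ 2)) * 8 := Nat.mul_le_mul_right _ hcL
        _ = Nat.card K * 4 * (Nat.card (zpowers (t ^ 2)) * 2) := by ring
        _ ≤ Nat.card K * K.relIndex M * (Nat.card (zpowers (t ^ 2)) * 2) :=
          Nat.mul_le_mul_right _ (Nat.mul_le_mul_left _ hidx)
        _ = _ := by rw [hct, hcM]
    omega
  have hRk : Rk 3 P := by
    refine Rk.of_sq (N := L.subgroupOf P) (fun x => ?_) ?_
    · exact hsq x x.2
    · change 2 ^ 3 ≤ L.relIndex P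
      exact h8
  obtain ⟨f, hf⟩ := hRk
  have hPΓ : P ≤ N ⊔ zpowers t := sup_le_sup_right hMN _
  have hPi : ¬ 2 ∣ P.relIndex (N ⊔ zpowers t) := by
    refine relIndex_odd N P M _ ?_ hMN le_sup_left hodd
    rw [hPdef, ← sup_assoc, sup_eq_left.2 hMN]
  refine D3.of_map (P.subgroupOf (N ⊔ zpowers t)) hPi (f.comp (subgroupOfEquivOfLe hPΓ).toMonoidHom)
    (hf.comp (subgroupOfEquivOfLe hPΓ).surjective) d3_target

end Cfsg.Agent.H984.K547.Split
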