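import Cfsg.Agent.H984.K547.PslB
import Cfsg.Agent.H984.K547.Split

/-!
# `PΣL₂(q)`: three generators (S4547, row PSL2(q), helper984)
-/

set_option autoImplicit false
set_option linter.unusedSectionVars false

open Cfsg

namespace Cfsg.Agent.H984.K547.PslA

open Matrix Cfsg.Agent.ClassicalGeometry.AutPSL.Root Cfsg.Agent.ClassicalGeometry.AutPSL.Auto
open Cfsg.Agent.H821.K547 Cfsg.Agent.H984.K547.PslAut Cfsg.Agent.H670.SL2 Cfsg.Agent.H984.K547.Tool
open Cfsg.Agent.H984.K547.PslB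
open Subgroup (zpowers mem_zpowers)

universe u

variable {F : Type u} [Field F]

local notation "S2" => SpecialLinearGroup (Fin 2) F
local notation "P2" => ProjectiveSpecialLinearGroup (Fin 2) F

theorem wel_mul_tor (u : Fˣ) : wel * tor u = tor u⁻¹ * (wel : S2) := by
  have := wel_tor u
  rwa [mul_inv_eq_iff_eq_mul] at this

theorem wel_inv : (wel : S2)⁻¹ = tor (-1) * wel := by
  rw [inv_eq_iff_mul_eq_one, ← mul_assoc, wel_mul_tor, mul_assoc, ← pow_two, wel_sq, ← map_mul]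
  simp

/-- the monomial group -/
def MS (F : Type u) [Field F] : Subgroup (SpecialLinearGroup (Fin 2) F) where
  carrier := {g | ∃ u, g = tor u ∨ g = tor u * wel}
  one_mem' := ⟨1, Or.inl (map_one _).symm⟩
  mul_mem' := by
    rintro _ _ ⟨u, rfl | rfl⟩ ⟨v, rfl | rfl⟩
    · exact ⟨u * v, Or.inl (map_mul _ _ _).symm⟩
    · exact ⟨u * v, Or.inr (by rw [← mul_assoc, map_mul])⟩
    · exact ⟨u * v⁻¹, Or.inr (by rw [mul_assoc, wel_mul_tor, ← mul_assoc, map_mul])⟩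
    · refine ⟨u * v⁻¹ * (-1), Or.inl ?_⟩
      rw [mul_assoc (tor u), ← mul_assoc wel, wel_mul_tor, mul_assoc (tor v⁻¹), ← pow_two, wel_sq, map_mul, map_mul,
        mul_assoc]
  inv_mem' := by
    rintro _ ⟨u, rfl | rfl⟩
    · exact ⟨u⁻¹, Or.inl (map_inv _ _).symm⟩
    · refine ⟨-1 * u, Or.inr ?_⟩
      rw [_root_.mul_inv_rev, ← map_inv, wel_inv, mul_assoc, wel_mul_tor, inv_inv, ← mul_assoc, ← map_mul]

/-- the squares in the torus -/
def KS (F : Type u) [Field F] : Subgroup (SpecialLinearGroup (Fin 2) F) where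
  carrier := {g | ∃ u : Fˣ, g = tor (u * u)}
  one_mem' := ⟨1, by rw [mul_one, map_one]⟩
  mul_mem' := by
    rintro _ _ ⟨u, rfl⟩ ⟨v, rfl⟩
    exact ⟨u * v, by rw [← map_mul]; congr 1; exact mul_mul_mul_comm u u v v⟩
  inv_mem' := by
    rintro _ ⟨u, rfl⟩
    exact ⟨u⁻¹, by rw [← map_inv, _root_.mul_inv_rev]⟩

theorem mem_KS {u : Fˣ} (h : IsSquare (u : F)) : tor u ∈ KS F := by
  obtain ⟨s, hs⟩ := h
  have hs0 : s ≠ 0 := by
    rintro rfl
    rw [mul_zero] at hs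
    exact u.ne_zero hs
  refine ⟨Units.mk0 s hs0, ?_⟩
  congr 1
  exact Units.ext hs

theorem KS_le : KS F ≤ MS F := by
  rintro _ ⟨u, rfl⟩
  exact ⟨_, Or.inl rfl⟩

theorem QS_le (z : Fˣ) : QS z ≤ MS F := by
  refine sup_le ?_ ?_
  · rw [Subgroup.zpowers_le]
    exact ⟨z, Or.inl rfl⟩
  · rw [Subgroup.zpowers_le]
    exact ⟨1, Or.inr (by rw [map_one, one_mul])⟩

/-- squares of the monomial group -/
theorem sq_mem_KS (h1 : IsSquare (-1 : F)) {g : S2} (hg : g ∈ MS F) : g ^ 2 ∈ KS F := by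
  obtain ⟨u, rfl | rfl⟩ := hg
  · exact ⟨u, by rw [pow_two, map_mul]⟩
  · have e : (tor u * wel) ^ 2 = (tor (-1) : S2) := by
      rw [pow_two, mul_assoc, ← mul_assoc wel, wel_mul_tor, mul_assoc (tor u⁻¹), ← pow_two, wel_sq, ← mul_assoc,
        ← map_mul, mul_inv_cancel, map_one, one_mul]
    rw [e]
    exact mem_KS (by rw [Units.val_neg, Units.val_one]; exact h1)

variable [Finite F]

/-- the ratio of `σ u` and `u` is a square -/
theorem sq_ratio (σ : F ≃+* F) (u : Fˣ) : IsSquare ((Units.map (σ : F →* F) u * u⁻¹ : Fˣ) : F) := by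
  rw [Units.val_mul, Units.coe_map, Units.val_inv_eq_inv_val]
  change IsSquare (σ (u : F) * (u : F)⁻¹)
  by_cases h : IsSquare (u : F)
  · have h1 : IsSquare (σ (u : F)) := h.map σ
    exact h1.mul h.inv
  · have h1 : ¬ IsSquare (σ (u : F)) := by
      intro h2
      apply h
      have h3 := h2.map σ.symm
      rwa [RingEquiv.symm_apply_apply] at h3
    obtain ⟨e, he⟩ := sq_of_nonsquare h1 h
    refine ⟨e, ?_⟩
    rw [he]
    have := u.ne_zero
    field_simp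

theorem comm_mem_KS (σ : F ≃+* F) {g : S2} (hg : g ∈ MS F) : fld σ g * g⁻¹ ∈ KS F := by
  obtain ⟨u, rfl | rfl⟩ := hg
  · rw [fld_tor, ← map_inv, ← map_mul]
    exact mem_KS (sq_ratio σ u)
  · rw [map_mul, fld_tor, fld_wel, _root_.mul_inv_rev, ← mul_assoc, mul_inv_cancel_right, ← map_inv, ← map_mul]
    exact mem_KS (sq_ratio σ u)

/-- the index -/
theorem four_le (hF : ∃ a : F, ¬ IsSquare a) : 4 ≤ (KS F).relIndex (MS F) := by
  have h1 : KS F ≤ (tor : Fˣ →* S2).range := by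
    rintro _ ⟨u, rfl⟩
    exact ⟨_, rfl⟩
  have h2 : (tor : Fˣ →* S2).range ≤ MS F := by
    rintro _ ⟨u, rfl⟩
    exact ⟨_, Or.inl rfl⟩
  have h3 := Subgroup.relIndex_mul_relIndex _ _ _ h1 h2
  have h4 : (KS F).relIndex (tor : Fˣ →* S2).range ≠ 1 := by
    rw [Ne, Subgroup.relIndex_eq_one]
    intro h
    obtain ⟨a, ha⟩ := hF
    have ha0 : a ≠ 0 := by rintro rfl; exact ha IsSquare.zero
    obtain ⟨v, hv⟩ := h ⟨Units.mk0 a ha0, rfl⟩
    have h5 := congrArg Units.val (PslB.tor_inj hv)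
    apply ha
    exact ⟨v, h5⟩
  have h5 : ((tor : Fˣ →* S2).range).relIndex (MS F) ≠ 1 := by
    rw [Ne, Subgroup.relIndex_eq_one]
    intro h
    obtain ⟨u, hu⟩ := h (⟨1, Or.inr (by rw [map_one, one_mul])⟩ : (wel : S2) ∈ MS F)
    exact tor_ne_wel u hu
  have h6 : (KS F).relIndex (tor : Fˣ →* S2).range ≠ 0 := Subgroup.index_ne_zero_of_finite
  have h7 : ((tor : Fˣ →* S2).range).relIndex (MS F) ≠ 0 := Subgroup.index_ne_zero_of_finite
  rw [← h3]
  have h8 : 2 ≤ (KS F).relIndex (tor : Fˣ →* S2).range := by omega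
  have h9 : 2 ≤ ((tor : Fˣ →* S2).range).relIndex (MS F) := by omega
  exact Nat.mul_le_mul h8 h9

/-- the kernel of `cpr` -/
theorem ker_le (h1 : IsSquare (-1 : F)) : (cpr : S2 →* MulAut P2).ker ≤ KS F := by
  intro g hg
  have h2 : au (tg g) 1 = (1 : MulAut P2) := by
    rw [← conj_pr]
    exact hg
  obtain ⟨⟨r, hr⟩, -⟩ := eq_one_of_au h2
  have hd : r * r = 1 := by
    have h3 := congrArg Matrix.det hr
    rw [coe_tg, g.2] at h3
    rw [← h3]
    simp [pow_two]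
  have hr0 : r ≠ 0 := by
    rintro rfl
    rw [mul_zero] at hd
    exact zero_ne_one hd
  have hg' : g = tor (Units.mk0 r hr0) := by
    apply Subtype.ext
    rw [coe_tg] at hr
    rw [← hr, coe_tor]
    have h4 : r⁻¹ = r := inv_eq_of_mul_eq_one_left hd
    ext i j
    fin_cases i <;> fin_cases j <;> simp [h4]
  rw [hg']
  apply mem_KS
  rw [Units.val_mk0]
  rcases mul_self_eq_one_iff.1 hd with h | h
  · rw [h]; exact ⟨1, by ring⟩
  · rw [h]; exact h1

theorem au_one_pow (σ : F ≃+* F) (n : ℕ) : au 1 σ ^ n = (au 1 (σ ^ n) : MulAut P2) := by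
  induction n with
  | zero => rw [pow_zero, pow_zero, au_one]
  | succ n ih => rw [pow_succ, ih, au_mul, map_one, one_mul, ← pow_succ]

/-- **`D3` for `PΣL₂(q)`** -/
theorem d3_fld (h4 : Nat.card F % 4 = 1) {σ : F ≃+* F} {k : ℕ} (hσ1 : σ ≠ 1) (hσ : σ ^ 2 ^ k = 1) :
    D3 (AutExt (au 1 σ : MulAut P2)) := by
  have hm1 : IsSquare (-1 : F) := by
    have := Fintype.ofFinite F
    rw [FiniteField.isSquare_neg_one_iff, ← Nat.card_eq_fintype_card, h4]
    norm_num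
  obtain ⟨z, m, hz, hm, hzs⟩ := exists_z h4
  have hMN : (MS F).map cpr ≤ (MulAut.conj : P2 →* MulAut P2).range := by
    rw [← range_cpr]
    rintro _ ⟨g, -, rfl⟩
    exact ⟨g, rfl⟩
  have hpow : (au 1 σ : MulAut P2) ^ 2 ^ k = 1 := by rw [au_one_pow, hσ, au_one]
  refine Split.d3_split (MulAut.conj : P2 →* MulAut P2).range (au 1 σ) ((MS F).map cpr) hMN ?_ ?_ ?_
    ((KS F).map cpr) (Subgroup.map_mono KS_le) ?_ ?_ ?_
  · rw [← range_cpr, MonoidHom.range_eq_map, Subgroup.relIndex_map_map, top_sup_eq, Subgroup.relIndex_top_right]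
    intro h
    exact index_QS hz hm h4 ((h.trans (Subgroup.index_dvd_of_le le_sup_left)).trans
      (Subgroup.index_dvd_of_le (QS_le z)))
  · intro j hj
    obtain ⟨n, hn⟩ := (mem_powers_iff_mem_zpowers).2 (⟨j, rfl⟩ : (au 1 σ : MulAut P2) ^ j ∈ zpowers (au 1 σ))
    have hn' : (au 1 σ : MulAut P2) ^ n = au 1 σ ^ j := hn
    rw [← hn', au_one_pow] at hj ⊢
    obtain ⟨s, hs⟩ := hj
    have h1 := (isInn_au (A := 1) (σ := σ ^ n) ⟨s, fun x => by rw [← hs]; rfl⟩).1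
    rw [h1, au_one]
  · have h1 := orderOf_dvd_of_pow_eq_one hpow
    obtain ⟨j, -, hj⟩ := (Nat.dvd_prime_pow Nat.prime_two).1 h1
    rw [hj]
    apply dvd_pow_self
    rintro rfl
    rw [pow_zero, orderOf_eq_one_iff] at hj
    apply hσ1
    exact (isInn_au (A := 1) (σ := σ) ⟨1, fun x => by rw [hj]; simp⟩).1
  · rintro _ ⟨g, hg, rfl⟩
    rw [← map_pow]
    exact ⟨_, sq_mem_KS hm1 hg, rfl⟩
  · rintro _ ⟨g, hg, rfl⟩
    have h1 := au_conj_cpr 1 σ g
    rw [map_one, one_mul] at h1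
    rw [h1, ← map_inv, ← map_mul]
    exact ⟨_, comm_mem_KS σ hg, rfl⟩
  · rw [Subgroup.relIndex_map_map, sup_eq_left.2 (ker_le hm1), sup_eq_left.2 ((ker_le hm1).trans KS_le)]
    exact four_le ⟨z, hzs⟩

/-- **`D3`, inside `PΣL₂(q)`** -/
theorem d3_of_sq (h4 : Nat.card F % 4 = 1) {A : GL (Fin 2) F} {σ : F ≃+* F} {k : ℕ} (hσ1 : σ ≠ 1)
    (hσ : σ ^ 2 ^ k = 1) (hA : IsSquare (A : Matrix (Fin 2) (Fin 2) F).det) : D3 (AutExt (au A σ)) := by
  obtain ⟨g, hg⟩ := inner_of_sq hA σ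
  have h1 : au A σ = MulAut.conj (pr g) * au 1 σ := by
    rw [hg, conj_pr, au_mul, gm_one, one_mul, mul_one]
  rw [h1, autExt_conj]
  exact d3_fld h4 hσ1 hσ

end Cfsg.Agent.H984.K547.PslA
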