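import Cfsg.Agent.ClassicalGeometry.AutPSL.Main
import Cfsg.Agent.H821.K547.Defs

/-!
# Automorphisms of `PSL₂(F)` (S4547, row PSL2(q), helper984)

* `au A σ` : conjugation by `A ∈ GL₂(F)` after the field automorphism `σ`;
* `au_mul`, `au_one`, `conj_pr`, `isInn_au`, `exists_au`.
-/

set_option autoImplicit false

namespace Cfsg.Agent.H984.K547.PslAut

open Matrix Cfsg.Agent.ClassicalGeometry.AutPSL.Root Cfsg.Agent.ClassicalGeometry.AutPSL.Auto
open Cfsg.Agent.ClassicalGeometry.AutPSL.Main Cfsg.Agent.H821.K547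

universe u

variable {F : Type u} [Field F]

local notation "S2" => SpecialLinearGroup (Fin 2) F
local notation "P2" => ProjectiveSpecialLinearGroup (Fin 2) F

/-- conjugation by `A` after the field automorphism `σ` -/
def au (A : GL (Fin 2) F) (σ : F ≃+* F) : MulAut P2 := lift (cj A * fld σ)

/-- the field automorphism on `GL₂` -/
def gm (σ : F ≃+* F) : GL (Fin 2) F →* GL (Fin 2) F := GeneralLinearGroup.map (σ : F →+* F)

theorem coe_gm (σ : F ≃+* F) (A : GL (Fin 2) F) (i j : Fin 2) :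
    (gm σ A : Matrix (Fin 2) (Fin 2) F) i j = σ ((A : Matrix (Fin 2) (Fin 2) F) i j) := rfl

theorem fld_cj (σ : F ≃+* F) (A : GL (Fin 2) F) :
    (fld σ : MulAut S2) * cj A = cj (gm σ A) * fld σ := by
  apply MulEquiv.ext
  intro g
  apply Subtype.ext
  rw [MulAut.mul_apply, MulAut.mul_apply, coe_cj, ← map_inv]
  ext i j
  rw [coe_fld_apply, coe_cj, Matrix.mul_apply, Matrix.mul_apply, map_sum]
  refine Finset.sum_congr rfl fun k _ => ?_
  rw [map_mul, Matrix.mul_apply, Matrix.mul_apply, map_sum, coe_gm]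
  congr 1
  refine Finset.sum_congr rfl fun l _ => ?_
  rw [map_mul, coe_gm, coe_fld_apply]

theorem au_mul (A B : GL (Fin 2) F) (σ τ : F ≃+* F) :
    au A σ * au B τ = au (A * gm σ B) (σ * τ) := by
  rw [au, au, au, ← map_mul, mul_assoc, ← mul_assoc (fld σ), fld_cj, map_mul cj, map_mul fld]
  simp only [mul_assoc]

theorem au_pr (A : GL (Fin 2) F) (σ : F ≃+* F) (g : S2) : au A σ (pr g) = pr (cj A (fld σ g)) := rfl

theorem au_one : (au 1 1 : MulAut P2) = 1 := by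
  rw [au, map_one, map_one, one_mul, map_one]

theorem gm_one (A : GL (Fin 2) F) : gm 1 A = A := by
  apply Units.ext
  ext i j
  rfl

theorem gm_mul (σ τ : F ≃+* F) (A : GL (Fin 2) F) : gm (σ * τ) A = gm σ (gm τ A) := by
  apply Units.ext
  ext i j
  rfl

theorem det_gm (σ : F ≃+* F) (A : GL (Fin 2) F) :
    (gm σ A : Matrix (Fin 2) (Fin 2) F).det = σ ((A : Matrix (Fin 2) (Fin 2) F).det) := by
  rw [Matrix.det_fin_two, Matrix.det_fin_two, map_sub, map_mul, map_mul]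
  rfl

/-- the element of `GL₂` -/
def tg (g : S2) : GL (Fin 2) F := SpecialLinearGroup.toGL g

theorem coe_tg (g : S2) : (tg g : Matrix (Fin 2) (Fin 2) F) = g := rfl

theorem cj_tg (g : S2) : cj (tg g) = MulAut.conj g := by
  apply MulEquiv.ext
  intro h
  apply Subtype.ext
  rw [coe_cj, coe_tg, MulAut.conj_apply]
  have h1 : ((tg g)⁻¹ : GL (Fin 2) F) = tg g⁻¹ := (map_inv SpecialLinearGroup.toGL g).symm
  rw [h1]
  rfl

theorem conj_pr (g : S2) : (MulAut.conj (pr g) : MulAut P2) = au (tg g) 1 := by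
  rw [au, map_one, mul_one, cj_tg]
  apply MulEquiv.ext
  intro x
  obtain ⟨x, rfl⟩ := pr_surjective x
  rw [MulAut.conj_apply, lift_pr, MulAut.conj_apply, map_mul, map_mul, map_inv]

/-- diagonal matrices -/
def dg (a b : Fˣ) : GL (Fin 2) F := Matrix.GeneralLinearGroup.mkOfDetNeZero !![(a : F), 0; 0, (b : F)] (by
  rw [Matrix.det_fin_two_of, mul_zero, sub_zero]
  exact mul_ne_zero a.ne_zero b.ne_zero)

theorem coe_dg (a b : Fˣ) : (dg a b : Matrix (Fin 2) (Fin 2) F) = !![(a : F), 0; 0, (b : F)] := rfl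

theorem dg_mul (a b c d : Fˣ) : dg a b * dg c d = dg (a * c) (b * d) := by
  apply Units.ext
  rw [Units.val_mul, coe_dg, coe_dg, coe_dg]
  ext i j
  fin_cases i <;> fin_cases j <;> simp [Matrix.mul_apply, Fin.sum_univ_two]

theorem dg_one : (dg 1 1 : GL (Fin 2) F) = 1 := by
  apply Units.ext
  rw [coe_dg]
  ext i j
  fin_cases i <;> fin_cases j <;> simp

theorem dg_inv (a b : Fˣ) : (dg a b)⁻¹ = dg a⁻¹ b⁻¹ := by
  rw [inv_eq_iff_mul_eq_one, dg_mul, mul_inv_cancel, mul_inv_cancel, dg_one]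

theorem det_dg (a b : Fˣ) : (dg a b : Matrix (Fin 2) (Fin 2) F).det = a * b := by
  rw [coe_dg, Matrix.det_fin_two_of, mul_zero, sub_zero]

theorem gm_dg (σ : F ≃+* F) (a b : Fˣ) :
    gm σ (dg a b) = dg (Units.map (σ : F →* F) a) (Units.map (σ : F →* F) b) := by
  apply Units.ext
  ext i j
  rw [coe_gm, coe_dg, coe_dg]
  fin_cases i <;> fin_cases j <;> simp

/-- scalars act trivially -/
theorem au_scalar (c : Fˣ) (A : GL (Fin 2) F) (σ : F ≃+* F) : au (dg c c * A) σ = au A σ := by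
  rw [au, au, map_mul cj, cj_eq_one_of_scalar (r := (c : F)), one_mul]
  rw [coe_dg]
  ext i j
  fin_cases i <;> fin_cases j <;> simp

/-- elements of determinant `1` -/
theorem exists_tg (A : GL (Fin 2) F) (h : (A : Matrix (Fin 2) (Fin 2) F).det = 1) : ∃ g : S2, tg g = A :=
  ⟨⟨A, h⟩, Units.ext rfl⟩

/-- the determinant is a square -/
theorem inner_of_sq {A : GL (Fin 2) F} (h : IsSquare (A : Matrix (Fin 2) (Fin 2) F).det) (σ : F ≃+* F) :
    ∃ g : S2, au A σ = au (tg g) σ := by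
  obtain ⟨c, hc⟩ := h
  have h0 : (A : Matrix (Fin 2) (Fin 2) F).det ≠ 0 := by
    have := (Matrix.isUnit_iff_isUnit_det _).1 A.isUnit
    exact this.ne_zero
  have hc0 : c ≠ 0 := by
    rintro rfl
    rw [mul_zero] at hc
    exact h0 hc
  set u : Fˣ := Units.mk0 c hc0 with hu
  have h1 : (dg u⁻¹ u⁻¹ * A : Matrix (Fin 2) (Fin 2) F).det = 1 := by
    rw [det_mul, det_dg, hc, Units.val_inv_eq_inv_val, Units.val_mk0]
    field_simp
  obtain ⟨g, hg⟩ := exists_tg (dg u⁻¹ u⁻¹ * A) h1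
  exact ⟨g, by rw [hg, au_scalar]⟩

/-- every automorphism -/
theorem exists_au (p : ℕ) [Fact p.Prime] [CharP F p] [Finite F] (α : MulAut P2) :
    ∃ (A : GL (Fin 2) F) (σ : F ≃+* F), α = au A σ := by
  have := Fintype.ofFinite F
  exact surj_two p α

/-- equality with `1` -/
theorem eq_one_of_au {A : GL (Fin 2) F} {σ : F ≃+* F} (h : au A σ = 1) :
    (∃ r : F, scalar (Fin 2) r = (A : Matrix (Fin 2) (Fin 2) F)) ∧ σ = 1 := by
  have h1 : lift (cj A * fld σ) = (lift (fld (1 : F ≃+* F)) : MulAut P2) := by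
    rw [map_one fld, map_one lift]
    exact h
  exact injective_aux h1

theorem isInn_au {A : GL (Fin 2) F} {σ : F ≃+* F} (h : IsInn (au A σ)) :
    σ = 1 ∧ IsSquare (A : Matrix (Fin 2) (Fin 2) F).det := by
  obtain ⟨s, hs⟩ := h
  obtain ⟨g, rfl⟩ := pr_surjective s
  have h1 : au A σ = au (tg g) 1 := by
    rw [← conj_pr]
    apply MulEquiv.ext
    exact hs
  have h2 : au (tg g⁻¹ * A) σ = 1 := by
    have h3 : au (tg g⁻¹) 1 * au A σ = au (tg g⁻¹ * A) σ := by
      rw [au_mul, gm_one, one_mul]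
    rw [← h3, h1, au_mul, gm_one, mul_one]
    have h4 : tg g⁻¹ * tg g = 1 := by
      change SpecialLinearGroup.toGL g⁻¹ * SpecialLinearGroup.toGL g = 1
      rw [← map_mul, inv_mul_cancel, map_one]
    rw [h4, au_one]
  obtain ⟨⟨r, hr⟩, hσ⟩ := eq_one_of_au h2
  refine ⟨hσ, r, ?_⟩
  have h5 := congrArg Matrix.det hr
  rw [Units.val_mul, det_mul, coe_tg, g⁻¹.2, one_mul] at h5
  rw [← h5]
  simp [pow_two]

/-- powers -/
theorem au_pow (A : GL (Fin 2) F) (σ : F ≃+* F) (m : ℕ) : ∃ B : GL (Fin 2) F, au A σ ^ m = au B (σ ^ m) := by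
  induction m with
  | zero => exact ⟨1, by rw [pow_zero, pow_zero, au_one]⟩
  | succ m ih =>
    obtain ⟨B, hB⟩ := ih
    exact ⟨B * gm (σ ^ m) A, by rw [pow_succ, hB, au_mul, pow_succ]⟩

theorem two_pow {A : GL (Fin 2) F} {σ : F ≃+* F} (h : TwoPow (au A σ)) : ∃ k : ℕ, σ ^ 2 ^ k = 1 := by
  obtain ⟨k, s, hs⟩ := h
  obtain ⟨B, hB⟩ := au_pow A σ (2 ^ k)
  refine ⟨k, (isInn_au (A := B) ⟨s, fun x => ?_⟩).1⟩
  rw [← hB]
  exact hs x

/-- `au A σ = conj (pr B) * au (dg δ 1) σ` with `δ = det A / c²` -/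
theorem exists_split (A : GL (Fin 2) F) (σ : F ≃+* F) (d : Fˣ)
    (hd : ∃ c : F, (A : Matrix (Fin 2) (Fin 2) F).det = d * (c * c)) :
    ∃ g : S2, au A σ = MulAut.conj (pr g) * au (dg d 1) σ := by
  obtain ⟨c, hc⟩ := hd
  have h1 : IsSquare (A * dg d⁻¹ 1 : Matrix (Fin 2) (Fin 2) F).det := by
    refine ⟨c, ?_⟩
    rw [det_mul, det_dg, hc, Units.val_inv_eq_inv_val, Units.val_one]
    have := d.ne_zero
    field_simp
  obtain ⟨g, hg⟩ := inner_of_sq (A := A * dg d⁻¹ 1) h1 1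
  refine ⟨g, ?_⟩
  rw [conj_pr, ← hg, au_mul, gm_one, one_mul, mul_assoc, dg_mul, inv_mul_cancel, mul_one, dg_one, mul_one]

end Cfsg.Agent.H984.K547.PslAut
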