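import Cfsg.Agent.H821.K547.Tools

/-!
# `¬ D3` for groups with 2-generated Sylow 2-subgroups; `D3` for split extensions (S4547, helper984)
-/

set_option autoImplicit false

namespace Cfsg.Agent.H984.K547.Tool

open Subgroup Cfsg.Agent.H821.K547

universe u

/-- a group generated by two elements does not map onto `C₂³` -/
theorem not_rk_of_closure {P : Type u} [Group P] (a b : P) (h : (⊤ : Subgroup P) ≤ Subgroup.closure {a, b}) : ¬ Rk 3 P := by
  rintro ⟨f, hf⟩
  have hsq : ∀ v : Multiplicative (Fin 3 → ZMod 2), v ^ 2 = 1 := by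
    intro v
    rw [pow_two]
    apply Multiplicative.toAdd.injective
    funext i
    have h2 : ∀ a : ZMod 2, a + a = 0 := by decide
    exact h2 _
  have hord : ∀ v : Multiplicative (Fin 3 → ZMod 2), Nat.card (zpowers v) ≤ 2 := by
    intro v
    rw [Nat.card_zpowers]
    exact Nat.le_of_dvd (by norm_num) (orderOf_dvd_of_pow_eq_one (hsq v))
  have hcl : (Subgroup.closure {f a, f b} : Subgroup (Multiplicative (Fin 3 → ZMod 2))) = ⊤ := by
    rw [← Set.image_pair, ← MonoidHom.map_closure, top_le_iff.1 h, ← MonoidHom.range_eq_map,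
      MonoidHom.range_eq_top.2 hf]
  have hs : Function.Surjective (fun x : zpowers (f a) × zpowers (f b) =>
      ((x.1 : Multiplicative (Fin 3 → ZMod 2)) * x.2)) := by
    intro v
    have hv : v ∈ Subgroup.closure {f a, f b} := by rw [hcl]; exact mem_top v
    obtain ⟨m, n, hmn⟩ := mem_closure_pair.1 hv
    exact ⟨(⟨f a ^ m, zpow_mem (mem_zpowers _) m⟩, ⟨f b ^ n, zpow_mem (mem_zpowers _) n⟩), hmn⟩
  have h1 := Nat.card_le_card_of_surjective _ hs
  rw [Nat.card_prod] at h1
  have h2 : Nat.card (Multiplicative (Fin 3 → ZMod 2)) = 8 := by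
    rw [Nat.card_congr Multiplicative.toAdd, Nat.card_fun, Nat.card_zmod, Nat.card_fin]
    norm_num
  rw [h2] at h1
  have h3 := Nat.mul_le_mul (hord (f a)) (hord (f b))
  omega

/-- **two generators** -/
theorem not_d3_of_closure {G : Type u} [Group G] [Finite G] (Γ P : Subgroup G) (hle : P ≤ Γ) (hP : IsPGroup 2 P)
    (hodd : ¬ 2 ∣ P.relIndex Γ) (a b : G) (ha : a ∈ P) (hb : b ∈ P) (h : P ≤ Subgroup.closure {a, b}) : ¬ D3 Γ := by
  intro hD
  have h2 : Fact (Nat.Prime 2) := ⟨Nat.prime_two⟩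
  have hP' : IsPGroup 2 (P.subgroupOf Γ) := hP.comap_subtype
  have h1 : Rk 3 (P.subgroupOf Γ) := hD (hP'.toSylow hodd)
  have h3 : Rk 3 P := Rk.congr (subgroupOfEquivOfLe hle).symm h1
  refine not_rk_of_closure (⟨a, ha⟩ : P) ⟨b, hb⟩ ?_ h3
  have h4 : (Subgroup.closure {(⟨a, ha⟩ : P), ⟨b, hb⟩}).map P.subtype = Subgroup.closure {a, b} := by
    rw [MonoidHom.map_closure, Set.image_pair]
    rfl
  intro x _
  have h5 : (x : G) ∈ (Subgroup.closure {(⟨a, ha⟩ : P), ⟨b, hb⟩}).map P.subtype := by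
    rw [h4]
    exact h x.2
  obtain ⟨y, hy, hyx⟩ := h5
  have : y = x := Subtype.ext hyx
  rwa [this] at hy

/-- a cyclic subgroup of index at most two in a Sylow 2-subgroup -/
theorem not_d3_of_cyclic {G : Type u} [Group G] [Finite G] (x : G) (n : ℕ) (hx : orderOf x = 2 ^ n)
    (h : ¬ 2 ^ (n + 2) ∣ Nat.card G) : ¬ D3 G := by
  intro hD
  have h2 : Fact (Nat.Prime 2) := ⟨Nat.prime_two⟩
  have hxp : IsPGroup 2 (zpowers x) := IsPGroup.of_card (n := n) (by rw [Nat.card_zpowers, hx])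
  obtain ⟨P, hP⟩ := hxp.exists_le_sylow
  have hxP : x ∈ (P : Subgroup G) := hP (mem_zpowers x)
  obtain ⟨m, hm⟩ := IsPGroup.iff_card.1 P.isPGroup'
  have hcard : Nat.card (zpowers (⟨x, hxP⟩ : (P : Subgroup G))) = 2 ^ n := by
    rw [Nat.card_zpowers, orderOf_mk, hx]
  have hmn : m ≤ n + 1 := by
    by_contra hcon
    apply h
    have h3 : 2 ^ m ∣ Nat.card G := hm ▸ card_subgroup_dvd_card (P : Subgroup G)
    exact (pow_dvd_pow 2 (by omega)).trans h3
  have key : ∃ t : (P : Subgroup G), (⊤ : Subgroup (P : Subgroup G)) ≤ Subgroup.closure {⟨x, hxP⟩, t} := by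
    by_cases hall : ∀ t : (P : Subgroup G), t ∈ zpowers (⟨x, hxP⟩ : (P : Subgroup G))
    · refine ⟨1, fun t _ => ?_⟩
      have h3 : zpowers (⟨x, hxP⟩ : (P : Subgroup G)) ≤ Subgroup.closure {⟨x, hxP⟩, 1} := by
        rw [zpowers_le]
        exact subset_closure (Set.mem_insert _ _)
      exact h3 (hall t)
    · push Not at hall
      obtain ⟨t, ht⟩ := hall
      refine ⟨t, ?_⟩
      have h3 : zpowers (⟨x, hxP⟩ : (P : Subgroup G)) ≤ Subgroup.closure {⟨x, hxP⟩, t} := by
        rw [zpowers_le]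
        exact subset_closure (Set.mem_insert _ _)
      have h4 : t ∈ Subgroup.closure {(⟨x, hxP⟩ : (P : Subgroup G)), t} :=
        subset_closure (Set.mem_insert_of_mem _ rfl)
      have h5 : zpowers (⟨x, hxP⟩ : (P : Subgroup G)) < Subgroup.closure {⟨x, hxP⟩, t} :=
        lt_of_le_of_ne h3 fun h6 => ht (h6 ▸ h4)
      have h6 : 2 ^ n < Nat.card (Subgroup.closure {(⟨x, hxP⟩ : (P : Subgroup G)), t}) := by
        rw [← hcard]
        exact Set.Finite.card_lt_card (Set.toFinite _) h5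
      have h7 := card_subgroup_dvd_card (Subgroup.closure {(⟨x, hxP⟩ : (P : Subgroup G)), t})
      rw [hm] at h7
      obtain ⟨j, hj, hj'⟩ := (Nat.dvd_prime_pow Nat.prime_two).1 h7
      rw [hj'] at h6
      have h8 : n < j := (Nat.pow_lt_pow_iff_right (by norm_num)).1 h6
      have h9 : j = m := by omega
      rw [top_le_iff]
      apply eq_top_of_card_eq
      rw [hj', hm, h9]
  obtain ⟨t, ht⟩ := key
  exact not_rk_of_closure _ t ht (hD P)

/-- the index of a supplement of a normal subgroup -/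
theorem relIndex_odd {G : Type u} [Group G] [Finite G] (N P Q Γ : Subgroup G) [N.Normal] (hΓ : Γ = N ⊔ P) (hQN : Q ≤ N)
    (hQP : Q ≤ P) (ho : ¬ 2 ∣ Q.relIndex N) : ¬ 2 ∣ P.relIndex Γ := by
  have hNΓ : N ≤ Γ := by rw [hΓ]; exact le_sup_left
  have hPΓ : P ≤ Γ := by rw [hΓ]; exact le_sup_right
  have h1 : N.relIndex Γ = N.relIndex P := by
    rw [hΓ, sup_comm, relIndex_sup_right]
  have h2 : Nat.card N * N.relIndex Γ = Nat.card Γ := by
    rw [← relIndex_bot_left, ← relIndex_bot_left, mul_comm]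
    rw [mul_comm]
    exact relIndex_mul_relIndex ⊥ N Γ bot_le hNΓ
  have h3 : Nat.card P * P.relIndex Γ = Nat.card Γ := by
    rw [← relIndex_bot_left, ← relIndex_bot_left]
    exact relIndex_mul_relIndex ⊥ P Γ bot_le hPΓ
  have h4 : Nat.card (N ⊓ P : Subgroup G) * N.relIndex P = Nat.card P := by
    rw [← relIndex_bot_left, ← relIndex_bot_left, ← inf_relIndex_right N P]
    exact relIndex_mul_relIndex ⊥ (N ⊓ P) P bot_le inf_le_right
  have h5 : Nat.card (N ⊓ P : Subgroup G) * (N ⊓ P).relIndex N = Nat.card N := by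
    rw [← relIndex_bot_left, ← relIndex_bot_left]
    exact relIndex_mul_relIndex ⊥ (N ⊓ P) N bot_le inf_le_left
  have h6 : P.relIndex Γ = (N ⊓ P).relIndex N := by
    rw [← h3, h1, ← h5, ← h4] at h2
    have hpos : 0 < Nat.card (N ⊓ P : Subgroup G) := Nat.card_pos
    have hpos2 : 0 < N.relIndex P := Nat.pos_of_ne_zero (by
      intro h0
      have := Nat.card_pos (α := P)
      rw [← h4, h0] at this
      omega)
    have h7 : (Nat.card (N ⊓ P : Subgroup G) * N.relIndex P) * (N ⊓ P).relIndex N =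
        (Nat.card (N ⊓ P : Subgroup G) * N.relIndex P) * P.relIndex Γ := by
      rw [← h2]
      ring
    exact (Nat.eq_of_mul_eq_mul_left (Nat.mul_pos hpos hpos2) h7).symm
  rw [h6]
  intro h7
  apply ho
  have h8 : Q.relIndex (N ⊓ P) * (N ⊓ P).relIndex N = Q.relIndex N :=
    relIndex_mul_relIndex Q (N ⊓ P) N (le_inf hQN hQP) inf_le_left
  rw [← h8]
  exact h7.mul_left _

/-! ### `AutExt` -/

variable {S : Type u} [Group S]

theorem autExt_conj (g : S) (τ : MulAut S) : AutExt (MulAut.conj g * τ) = AutExt τ := by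
  apply le_antisymm
  · refine sup_le le_sup_left ?_
    rw [zpowers_le]
    exact mul_mem (le_sup_left (b := zpowers τ) ⟨g, rfl⟩ : MulAut.conj g ∈ AutExt τ)
      (le_sup_right (a := (MulAut.conj : S →* MulAut S).range) (mem_zpowers τ) : τ ∈ AutExt τ)
  · refine sup_le le_sup_left ?_
    rw [zpowers_le]
    have h1 : MulAut.conj g⁻¹ * (MulAut.conj g * τ) ∈ AutExt (MulAut.conj g * τ) :=
      mul_mem (le_sup_left (b := zpowers (MulAut.conj g * τ)) ⟨g⁻¹, rfl⟩ :
          MulAut.conj g⁻¹ ∈ AutExt (MulAut.conj g * τ))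
        (le_sup_right (a := (MulAut.conj : S →* MulAut S).range) (mem_zpowers _) :
          MulAut.conj g * τ ∈ AutExt (MulAut.conj g * τ))
    rwa [← mul_assoc, ← map_mul, inv_mul_cancel, map_one, one_mul] at h1

instance inn_normal : ((MulAut.conj : S →* MulAut S).range).Normal := by
  constructor
  rintro _ ⟨s, rfl⟩ τ
  refine ⟨τ s, ?_⟩
  ext x
  simp only [MulAut.mul_apply, MulAut.conj_apply, map_mul, map_inv, MulAut.apply_inv_self]

theorem conj_mem (s : S) (τ : MulAut S) : MulAut.conj s ∈ AutExt τ :=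
  le_sup_left (b := zpowers τ) (⟨s, rfl⟩ : MulAut.conj s ∈ (MulAut.conj : S →* MulAut S).range)

theorem self_mem (τ : MulAut S) : τ ∈ AutExt τ :=
  le_sup_right (a := (MulAut.conj : S →* MulAut S).range) (mem_zpowers τ)

end Cfsg.Agent.H984.K547.Tool
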