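import Cfsg.Agent.H984.K547.PslAut
import Cfsg.Agent.H984.K547.Tool
import Cfsg.Agent.H670.SL2Odd
import Cfsg.Agent.H27.Psl.Field

/-!
# Automorphisms of `PSL₂(q)` outside `PΣL₂(q)`, `q ≡ 1` modulo 4: two generators (S4547, helper984)
-/

set_option autoImplicit false
set_option linter.unusedSectionVars false

open Cfsg

namespace Cfsg.Agent.H984.K547.PslB

open Matrix Cfsg.Agent.ClassicalGeometry.AutPSL.Root Cfsg.Agent.ClassicalGeometry.AutPSL.Auto
open Cfsg.Agent.H821.K547 Cfsg.Agent.H984.K547.PslAut Cfsg.Agent.H670.SL2 Cfsg.Agent.H984.K547.Tool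
open Subgroup (zpowers mem_zpowers)

universe u

variable {F : Type u} [Field F]

local notation "S2" => SpecialLinearGroup (Fin 2) F
local notation "P2" => ProjectiveSpecialLinearGroup (Fin 2) F

/-- a field with a nontrivial automorphism of 2-power order has square order -/
theorem exists_sq [Finite F] {σ : F ≃+* F} (h1 : σ ≠ 1) {k : ℕ} (hk : σ ^ 2 ^ k = 1) :
    ∃ q₀ : ℕ, Nat.card F = q₀ ^ 2 := by
  obtain ⟨j, -, hj⟩ := (Nat.dvd_prime_pow Nat.prime_two).1 (orderOf_dvd_of_pow_eq_one hk)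
  have hj0 : j ≠ 0 := by
    rintro rfl
    rw [pow_zero, orderOf_eq_one_iff] at hj
    exact h1 hj
  have h2 : orderOf (σ ^ 2 ^ (j - 1)) = 2 := by
    rw [orderOf_pow_of_dvd (pow_ne_zero _ two_ne_zero) (by rw [hj]; exact pow_dvd_pow 2 (by omega)), hj]
    have h3 : 2 ^ j = 2 ^ (j - 1) * 2 := by rw [← pow_succ]; congr 1; omega
    rw [h3, Nat.mul_div_cancel_left _ (by positivity)]
  exact ⟨_, Cfsg.Agent.H27.Psl.card_fixf Nat.prime_two h2⟩

/-! ### the matrices -/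

theorem cj_dg_tor (d u : Fˣ) : cj (dg d 1) (tor u) = tor u := by
  apply Subtype.ext
  rw [coe_cj, dg_inv]
  change !![(d : F), 0; 0, ((1 : Fˣ) : F)] * !![(u : F), 0; 0, ((u⁻¹ : Fˣ) : F)] *
    !![((d⁻¹ : Fˣ) : F), 0; 0, (((1 : Fˣ)⁻¹ : Fˣ) : F)] = !![(u : F), 0; 0, ((u⁻¹ : Fˣ) : F)]
  have := d.ne_zero
  ext i j
  fin_cases i <;> fin_cases j <;> simp [Matrix.mul_apply, Fin.sum_univ_two]
  field_simp

theorem cj_dg_wel (d : Fˣ) : cj (dg d 1) wel = tor d * wel := by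
  apply Subtype.ext
  rw [coe_cj, dg_inv]
  change !![(d : F), 0; 0, ((1 : Fˣ) : F)] * !![0, 1; -1, 0] *
    !![((d⁻¹ : Fˣ) : F), 0; 0, (((1 : Fˣ)⁻¹ : Fˣ) : F)] = !![(d : F), 0; 0, ((d⁻¹ : Fˣ) : F)] * !![0, 1; -1, 0]
  ext i j
  fin_cases i <;> fin_cases j <;> simp [Matrix.mul_apply, Fin.sum_univ_two]

theorem fld_tor (σ : F ≃+* F) (u : Fˣ) : fld σ (tor u) = tor (Units.map (σ : F →* F) u) := by
  apply Subtype.ext
  ext i j
  rw [coe_fld_apply, coe_tor, coe_tor]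
  fin_cases i <;> fin_cases j <;> simp

theorem fld_wel (σ : F ≃+* F) : fld σ (wel : S2) = wel := by
  apply Subtype.ext
  ext i j
  rw [coe_fld_apply, coe_wel]
  fin_cases i <;> fin_cases j <;> simp

theorem wel_tor (u : Fˣ) : wel * tor u * wel⁻¹ = tor u⁻¹ := by
  rw [mul_inv_eq_iff_eq_mul]
  apply Subtype.ext
  change !![0, 1; -1, 0] * !![(u : F), 0; 0, ((u⁻¹ : Fˣ) : F)] =
    !![((u⁻¹ : Fˣ) : F), 0; 0, ((u⁻¹⁻¹ : Fˣ) : F)] * !![0, 1; -1, 0]
  ext i j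
  fin_cases i <;> fin_cases j <;> simp [Matrix.mul_apply, Fin.sum_univ_two]

theorem wel_sq : (wel : S2) ^ 2 = tor (-1) := by
  rw [pow_two]
  apply Subtype.ext
  change !![0, 1; -1, 0] * !![0, 1; -1, 0] = !![((-1 : Fˣ) : F), 0; 0, (((-1 : Fˣ)⁻¹ : Fˣ) : F)]
  ext i j
  fin_cases i <;> fin_cases j <;> simp [Matrix.mul_apply, Fin.sum_univ_two]

theorem tor_inj : Function.Injective (tor : Fˣ →* S2) := by
  intro u v h
  apply Units.ext
  have h1 := congrArg (fun g : S2 => (g : Matrix (Fin 2) (Fin 2) F) 0 0) h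
  exact h1

theorem tor_ne_wel (u : Fˣ) : tor u ≠ wel := by
  intro h
  have h1 := congrArg (fun g : S2 => (g : Matrix (Fin 2) (Fin 2) F) 0 0) h
  exact u.ne_zero h1

/-! ### the 2-subgroup of `SL₂` -/

/-- generated by the torus part and the Weyl element -/
def QS (z : Fˣ) : Subgroup S2 := zpowers (tor z) ⊔ zpowers wel

theorem wel_norm (z : Fˣ) : zpowers (wel : S2) ≤ Subgroup.normalizer (zpowers (tor z) : Set S2) := by
  rw [Subgroup.zpowers_le, Subgroup.mem_normalizer_iff]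
  intro x
  constructor
  · rintro ⟨n, rfl⟩
    refine ⟨-n, ?_⟩
    change (tor z) ^ (-n) = wel * (tor z) ^ n * wel⁻¹
    rw [← map_zpow, ← map_zpow, wel_tor, _root_.zpow_neg]
  · rintro ⟨n, hn⟩
    refine ⟨-n, ?_⟩
    change (tor z) ^ (-n) = x
    change (tor z) ^ n = wel * x * wel⁻¹ at hn
    have h1 : x = wel⁻¹ * (tor z) ^ n * wel := by rw [hn]; group
    rw [h1, ← map_zpow, ← map_zpow, _root_.zpow_neg]
    have h2 := wel_tor (z ^ n)
    have h3 : tor (z ^ n)⁻¹ = (tor (z ^ n))⁻¹ := map_inv tor (z ^ n)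
    rw [h3] at h2 ⊢
    have h4 : (tor (z ^ n))⁻¹ = wel⁻¹ * tor (z ^ n) * wel := by
      rw [← h2]
      have h5 := wel_sq (F := F)
      have h6 : wel * (wel * tor (z ^ n) * wel⁻¹) * wel⁻¹ = tor (z ^ n) := by
        have h7 : wel ^ 2 * tor (z ^ n) * (wel ^ 2)⁻¹ = tor (z ^ n) := by
          rw [h5, ← map_inv, ← map_mul, ← map_mul]
          congr 1
          rw [mul_comm (-1 : Fˣ), mul_inv_cancel_right]
        rw [pow_two] at h7
        calc wel * (wel * tor (z ^ n) * wel⁻¹) * wel⁻¹ = wel * wel * tor (z ^ n) * (wel * wel)⁻¹ := by group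
          _ = _ := h7
      calc wel * tor (z ^ n) * wel⁻¹ = wel⁻¹ * (wel * (wel * tor (z ^ n) * wel⁻¹) * wel⁻¹) * wel := by group
        _ = wel⁻¹ * tor (z ^ n) * wel := by rw [h6]
    exact h4

variable [Finite F]

theorem isPGroup_QS {z : Fˣ} {m : ℕ} (hz : orderOf z = 2 ^ m) : IsPGroup 2 (QS z) := by
  have h2 : Fact (Nat.Prime 2) := ⟨Nat.prime_two⟩
  refine IsPGroup.to_sup_of_normal_left' ?_ ?_ (wel_norm z)
  · refine IsPGroup.of_card (n := m) ?_
    rw [Nat.card_zpowers, orderOf_injective tor tor_inj, hz]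
  · rintro ⟨x, n, rfl⟩
    refine ⟨2, Subtype.ext ?_⟩
    change (wel ^ n) ^ 4 = 1
    have h1 : (wel : S2) ^ 4 = 1 := by
      rw [show (4 : ℕ) = 2 * 2 from rfl, pow_mul, wel_sq, ← map_pow]
      norm_num
    rw [← zpow_natCast, ← _root_.zpow_mul, mul_comm, _root_.zpow_mul, zpow_natCast, h1, _root_.one_zpow]

theorem card_QS {z : Fˣ} {m : ℕ} (hz : orderOf z = 2 ^ m) : 2 ^ (m + 1) ∣ Nat.card (QS z) := by
  have h2 : Fact (Nat.Prime 2) := ⟨Nat.prime_two⟩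
  obtain ⟨j, hj⟩ := IsPGroup.iff_card.1 (isPGroup_QS hz)
  have h1 : zpowers (tor z) < QS z := by
    refine lt_of_le_of_ne le_sup_left fun h => ?_
    have h3 : (wel : S2) ∈ zpowers (tor z) := by
      rw [h]
      exact (le_sup_right : zpowers (wel : S2) ≤ QS z) (mem_zpowers _)
    obtain ⟨n, hn⟩ := h3
    apply tor_ne_wel (z ^ n)
    rw [map_zpow]
    exact hn
  have h4 : 2 ^ m < Nat.card (QS z) := by
    have h5 : Nat.card (zpowers (tor z)) = 2 ^ m := by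
      rw [Nat.card_zpowers, orderOf_injective tor tor_inj, hz]
    rw [← h5]
    exact Set.Finite.card_lt_card (Set.toFinite _) h1
  rw [hj] at h4 ⊢
  have h6 : m < j := (Nat.pow_lt_pow_iff_right (by norm_num)).1 h4
  exact pow_dvd_pow 2 (by omega)

/-- odd index in `SL₂` -/
theorem index_QS {z : Fˣ} {m : ℕ} (hz : orderOf z = 2 ^ m) (hm : ¬ 2 ^ (m + 1) ∣ Nat.card F - 1)
    (h4 : Nat.card F % 4 = 1) : ¬ 2 ∣ (QS z).index := by
  intro h
  have := Fintype.ofFinite F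
  have h1 := (QS z).card_mul_index
  have h2 : 2 ^ (m + 2) ∣ Nat.card S2 := by
    rw [← h1, pow_succ]
    exact mul_dvd_mul (card_QS hz) h
  rw [H670.SL2.card_SL2, ← Nat.card_eq_fintype_card] at h2
  obtain ⟨c, hc⟩ : ∃ c, Nat.card F = 4 * c + 1 := ⟨Nat.card F / 4, by omega⟩
  apply hm
  have h3 : (Nat.card F + 1) * (Nat.card F * (Nat.card F - 1)) =
      2 * (((2 * c + 1) * (4 * c + 1)) * (Nat.card F - 1)) := by
    have e : Nat.card F - 1 = 4 * c := by omega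
    rw [e, hc]
    ring
  rw [h3, show m + 2 = (m + 1) + 1 from rfl, pow_succ' 2 (m + 1)] at h2
  have h5 : 2 ^ (m + 1) ∣ ((2 * c + 1) * (4 * c + 1)) * (Nat.card F - 1) :=
    Nat.dvd_of_mul_dvd_mul_left (by norm_num) h2
  have h6 : Nat.Coprime (2 ^ (m + 1)) ((2 * c + 1) * (4 * c + 1)) := by
    apply Nat.Coprime.pow_left
    rw [Nat.coprime_two_left]
    exact Odd.mul ⟨c, by ring⟩ ⟨2 * c, by ring⟩
  exact h6.dvd_of_dvd_mul_left h5

/-! ### the automorphism -/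

/-- the inner automorphisms -/
def cpr : S2 →* MulAut P2 := (MulAut.conj : P2 →* MulAut P2).comp pr

omit [Finite F] in
theorem cpr_apply (g : S2) : cpr g = MulAut.conj (pr g) := rfl

omit [Finite F] in
theorem range_cpr : (cpr : S2 →* MulAut P2).range = (MulAut.conj : P2 →* MulAut P2).range := by
  apply le_antisymm
  · rintro _ ⟨g, rfl⟩
    exact ⟨pr g, rfl⟩
  · rintro _ ⟨s, rfl⟩
    obtain ⟨g, rfl⟩ := pr_surjective s
    exact ⟨g, rfl⟩

omit [Finite F] in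
theorem au_conj_cpr (A : GL (Fin 2) F) (σ : F ≃+* F) (g : S2) :
    au A σ * cpr g * (au A σ)⁻¹ = cpr ((cj A * fld σ : MulAut S2) g) := by
  rw [cpr_apply, cpr_apply]
  ext x
  simp only [MulAut.mul_apply, MulAut.conj_apply, map_mul, map_inv, MulAut.apply_inv_self]
  rfl

theorem zpowers_au {z : Fˣ} {m : ℕ} (hz : orderOf z = 2 ^ m) (σ : F ≃+* F) :
    Units.map (σ : F →* F) z ∈ zpowers z := by
  have h1 : IsPrimitiveRoot z (2 ^ m) := hz ▸ IsPrimitiveRoot.orderOf z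
  have : NeZero (2 ^ m) := ⟨by positivity⟩
  rw [h1.zpowers_eq, mem_rootsOfUnity, ← map_pow, ← hz, pow_orderOf_eq_one, map_one]

theorem map_QS {z : Fˣ} {m : ℕ} (hz : orderOf z = 2 ^ m) (σ : F ≃+* F) {g : S2} (hg : g ∈ QS z) :
    (cj (dg z 1) * fld σ : MulAut S2) g ∈ QS z := by
  have h1 : QS z ≤ (QS z).comap (cj (dg z 1) * fld σ : MulAut S2).toMonoidHom := by
    refine sup_le ?_ ?_
    · rw [Subgroup.zpowers_le]
      change cj (dg z 1) (fld σ (tor z)) ∈ QS z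
      rw [fld_tor, cj_dg_tor]
      obtain ⟨n, hn⟩ := zpowers_au hz σ
      have hn' : z ^ n = Units.map (σ : F →* F) z := hn
      rw [← hn', map_zpow]
      exact (le_sup_left : zpowers (tor z) ≤ QS z) ⟨n, rfl⟩
    · rw [Subgroup.zpowers_le]
      change cj (dg z 1) (fld σ wel) ∈ QS z
      rw [fld_wel, cj_dg_wel]
      exact mul_mem ((le_sup_left : zpowers (tor z) ≤ QS z) (mem_zpowers _))
        ((le_sup_right : zpowers wel ≤ QS z) (mem_zpowers _))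
  exact h1 hg

omit [Finite F] in
theorem au_dg_pow {z : Fˣ} {m : ℕ} (hz : z ^ 2 ^ m = 1) (σ : F ≃+* F) (j : ℕ) :
    ∃ c : Fˣ, c ^ 2 ^ m = 1 ∧ au (dg z 1) σ ^ j = au (dg c 1) (σ ^ j) := by
  induction j with
  | zero => exact ⟨1, one_pow _, by rw [pow_zero, pow_zero, dg_one, au_one]⟩
  | succ j ih =>
    obtain ⟨c, hc, hcj⟩ := ih
    refine ⟨c * Units.map ((σ ^ j : F ≃+* F) : F →* F) z, ?_, ?_⟩
    · rw [mul_pow, hc, one_mul, ← map_pow, hz, map_one]
    · rw [pow_succ, hcj, au_mul, gm_dg, dg_mul, map_one, one_mul, ← pow_succ]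

omit [Finite F] in
theorem au_dg_one_pow (c : Fˣ) (n : ℕ) : au (dg c 1) 1 ^ n = (au (dg (c ^ n) 1) 1 : MulAut P2) := by
  induction n with
  | zero => rw [pow_zero, pow_zero, dg_one, au_one]
  | succ n ih => rw [pow_succ, ih, au_mul, gm_one, dg_mul, one_mul, one_mul, ← pow_succ]

omit [Finite F] in
theorem au_two_pow {z : Fˣ} {m k : ℕ} (hz : z ^ 2 ^ m = 1) {σ : F ≃+* F} (hσ : σ ^ 2 ^ k = 1) :
    au (dg z 1) σ ^ 2 ^ (k + m) = 1 := by
  obtain ⟨c, hc, hcj⟩ := au_dg_pow hz σ (2 ^ k)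
  rw [pow_add, pow_mul, hcj, hσ, au_dg_one_pow, hc, dg_one, au_one]

/-- the 2-group of automorphisms -/
def PS (z : Fˣ) (σ : F ≃+* F) : Subgroup (MulAut P2) := (QS z).map cpr ⊔ zpowers (au (dg z 1) σ)

theorem norm_PS {z : Fˣ} {m : ℕ} (hz : orderOf z = 2 ^ m) (σ : F ≃+* F) :
    zpowers (au (dg z 1) σ) ≤ Subgroup.normalizer (((QS z).map cpr : Subgroup (MulAut P2)) : Set (MulAut P2)) := by
  rw [Subgroup.zpowers_le]
  apply Subgroup.mem_normalizer_fintype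
  rintro _ ⟨g, hg, rfl⟩
  rw [au_conj_cpr]
  exact ⟨_, map_QS hz σ hg, rfl⟩

theorem isPGroup_PS {z : Fˣ} {m k : ℕ} (hz : orderOf z = 2 ^ m) {σ : F ≃+* F} (hσ : σ ^ 2 ^ k = 1) :
    IsPGroup 2 (PS z σ) := by
  have h2 : Fact (Nat.Prime 2) := ⟨Nat.prime_two⟩
  refine IsPGroup.to_sup_of_normal_left' ((isPGroup_QS hz).map _) ?_ (norm_PS hz σ)
  rintro ⟨x, n, rfl⟩
  refine ⟨k + m, Subtype.ext ?_⟩
  change (au (dg z 1) σ ^ n) ^ 2 ^ (k + m) = 1
  rw [← zpow_natCast, ← _root_.zpow_mul, mul_comm, _root_.zpow_mul, zpow_natCast,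
    au_two_pow (by rw [← hz, pow_orderOf_eq_one]) hσ, _root_.one_zpow]

omit [Finite F] in
theorem PS_le_closure (z : Fˣ) (σ : F ≃+* F) : PS z σ ≤ Subgroup.closure {cpr wel, au (dg z 1) σ} := by
  have hT : au (dg z 1) σ ∈ Subgroup.closure {cpr wel, au (dg z 1) σ} :=
    Subgroup.subset_closure (Set.mem_insert_of_mem _ rfl)
  have hW : cpr wel ∈ Subgroup.closure {cpr wel, au (dg z 1) σ} :=
    Subgroup.subset_closure (Set.mem_insert _ _)
  refine sup_le ?_ ?_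
  · rw [Subgroup.map_le_iff_le_comap]
    refine sup_le ?_ ?_
    · rw [Subgroup.zpowers_le]
      change cpr (tor z) ∈ Subgroup.closure {cpr wel, au (dg z 1) σ}
      have h1 := au_conj_cpr (dg z 1) σ (wel : S2)
      rw [MulAut.mul_apply, fld_wel, cj_dg_wel, map_mul] at h1
      rw [eq_mul_inv_of_mul_eq h1.symm]
      exact mul_mem (mul_mem (mul_mem hT hW) (inv_mem hT)) (inv_mem hW)
    · rw [Subgroup.zpowers_le]
      exact hW
  · rw [Subgroup.zpowers_le]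
    exact hT

theorem relIndex_PS {z : Fˣ} {m : ℕ} (hz : orderOf z = 2 ^ m) (hm : ¬ 2 ^ (m + 1) ∣ Nat.card F - 1)
    (h4 : Nat.card F % 4 = 1) (σ : F ≃+* F) : ¬ 2 ∣ (PS z σ).relIndex (AutExt (au (dg z 1) σ)) := by
  have hle : (QS z).map cpr ≤ (MulAut.conj : P2 →* MulAut P2).range := by
    rw [← range_cpr]
    rintro _ ⟨g, -, rfl⟩
    exact ⟨g, rfl⟩
  refine relIndex_odd (MulAut.conj : P2 →* MulAut P2).range (PS z σ) ((QS z).map cpr) _ ?_ hle le_sup_left ?_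
  · rw [PS, ← sup_assoc, sup_eq_left.2 hle]
    rfl
  · rw [← range_cpr, MonoidHom.range_eq_map, Subgroup.relIndex_map_map, top_sup_eq, Subgroup.relIndex_top_right]
    intro h
    exact index_QS hz hm h4 (h.trans (Subgroup.index_dvd_of_le le_sup_left))

theorem not_d3_dg {z : Fˣ} {m k : ℕ} (hz : orderOf z = 2 ^ m) (hm : ¬ 2 ^ (m + 1) ∣ Nat.card F - 1)
    (h4 : Nat.card F % 4 = 1) {σ : F ≃+* F} (hσ : σ ^ 2 ^ k = 1) : ¬ D3 (AutExt (au (dg z 1) σ)) := by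
  have hW : cpr wel ∈ PS z σ := le_sup_left (b := zpowers (au (dg z 1) σ))
    (⟨wel, (le_sup_right : zpowers (wel : S2) ≤ QS z) (mem_zpowers _), rfl⟩ : cpr wel ∈ (QS z).map cpr)
  have hT : au (dg z 1) σ ∈ PS z σ := le_sup_right (a := (QS z).map cpr) (mem_zpowers _)
  refine not_d3_of_closure (AutExt (au (dg z 1) σ)) (PS z σ) ?_ (isPGroup_PS hz hσ) (relIndex_PS hz hm h4 σ)
    (cpr wel) (au (dg z 1) σ) hW hT (PS_le_closure z σ)
  refine sup_le ?_ ?_
  · rintro _ ⟨g, -, rfl⟩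
    exact conj_mem _ _
  · rw [Subgroup.zpowers_le]
    exact self_mem _

/-! ### nonsquares -/

/-- the 2-part of the multiplicative group -/
theorem exists_z (h4 : Nat.card F % 4 = 1) : ∃ (z : Fˣ) (m : ℕ), orderOf z = 2 ^ m ∧ ¬ 2 ^ (m + 1) ∣ Nat.card F - 1 ∧
    ¬ IsSquare (z : F) := by
  have hc1 : 1 < Nat.card F := Finite.one_lt_card
  have h0 : Nat.card F - 1 ≠ 0 := by omega
  have hcard : Nat.card Fˣ = Nat.card F - 1 := by rw [Nat.card_units]
  set m := (Nat.card F - 1).factorization 2 with hm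
  have h1 : 2 ^ m ∣ Nat.card F - 1 := Nat.ordProj_dvd _ _
  have h2 : ¬ 2 ^ (m + 1) ∣ Nat.card F - 1 := Nat.pow_succ_factorization_not_dvd h0 Nat.prime_two
  obtain ⟨g, hg⟩ := IsCyclic.exists_ofOrder_eq_natCard (α := Fˣ)
  obtain ⟨r, hr⟩ := h1
  have hr0 : r ≠ 0 := by
    rintro rfl
    rw [mul_zero] at hr
    exact h0 hr
  have hz : orderOf (g ^ r) = 2 ^ m := by
    rw [orderOf_pow_of_dvd hr0 (by rw [hg, hcard, hr]; exact dvd_mul_left _ _), hg, hcard, hr,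
      Nat.mul_div_cancel _ (Nat.pos_of_ne_zero hr0)]
  refine ⟨g ^ r, m, hz, h2, ?_⟩
  rintro ⟨s, hs⟩
  have hs0 : s ≠ 0 := by
    rintro rfl
    rw [mul_zero] at hs
    exact (g ^ r).ne_zero hs
  set u : Fˣ := Units.mk0 s hs0 with hu
  have hu2 : u ^ 2 = g ^ r := by
    apply Units.ext
    rw [Units.val_pow_eq_pow_val, hu, Units.val_mk0, pow_two, ← hs]
  apply h2
  rw [← hcard]
  have hm0 : m ≠ 0 := by
    intro h
    rw [h] at h2
    apply h2
    omega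
  have h5 : orderOf u = 2 ^ (m + 1) := by
    have h2' : Fact (Nat.Prime 2) := ⟨Nat.prime_two⟩
    refine orderOf_eq_prime_pow ?_ ?_
    · intro h6
      have h7 : (g ^ r) ^ 2 ^ (m - 1) = 1 := by
        rw [← hu2, ← pow_mul, ← pow_succ']
        have : m - 1 + 1 = m := by omega
        rw [this]
        exact h6
      have h8 := orderOf_dvd_of_pow_eq_one h7
      rw [hz] at h8
      have := (Nat.pow_dvd_pow_iff_le_right (by norm_num)).1 h8
      omega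
    · rw [pow_succ', pow_mul, hu2, ← hz, pow_orderOf_eq_one]
  rw [← h5]
  exact orderOf_dvd_natCard u

/-- the quotient of two nonsquares is a square -/
theorem sq_of_nonsquare {c d : F} (hc : ¬ IsSquare c) (hd : ¬ IsSquare d) : ∃ e : F, c = d * (e * e) := by
  classical
  have := Fintype.ofFinite F
  have hc0 : c ≠ 0 := by rintro rfl; exact hc (IsSquare.zero)
  have hd0 : d ≠ 0 := by rintro rfl; exact hd (IsSquare.zero)
  have h1 : IsSquare (c * d⁻¹) := by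
    rw [← quadraticChar_one_iff_isSquare (mul_ne_zero hc0 (inv_ne_zero hd0)), map_mul]
    have hd' : ¬ IsSquare d⁻¹ := fun h => hd (by
      rw [← inv_inv d]; exact h.inv)
    rw [quadraticChar_neg_one_iff_not_isSquare.2 hc, quadraticChar_neg_one_iff_not_isSquare.2 hd']
    norm_num
  obtain ⟨e, he⟩ := h1
  refine ⟨e, ?_⟩
  rw [← he]
  field_simp

/-- **`q ≡ 1` modulo 4, outside `PΣL₂(q)`** -/
theorem not_d3_one (h4 : Nat.card F % 4 = 1) {A : GL (Fin 2) F} {σ : F ≃+* F} {k : ℕ} (hσ : σ ^ 2 ^ k = 1)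
    (hA : ¬ IsSquare (A : Matrix (Fin 2) (Fin 2) F).det) : ¬ D3 (AutExt (au A σ)) := by
  obtain ⟨z, m, hz, hm, hzs⟩ := exists_z h4
  obtain ⟨g, hg⟩ := exists_split A σ z (sq_of_nonsquare hA hzs)
  rw [hg, autExt_conj]
  exact not_d3_dg hz hm h4 hσ

end Cfsg.Agent.H984.K547.PslB
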