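import Cfsg.Agent.H984.K547.PslB
import Cfsg.Agent.H393.K547.XRows

/-!
# `PGL₂(q)`, `q ≡ 3` modulo 4: two generators (S4547, helper984)
-/

set_option autoImplicit false
set_option linter.unusedSectionVars false

open Cfsg

namespace Cfsg.Agent.H984.K547.PslC

open Matrix Cfsg.Agent.ClassicalGeometry.AutPSL.Root Cfsg.Agent.ClassicalGeometry.AutPSL.Auto
open Cfsg.Agent.H821.K547 Cfsg.Agent.H984.K547.PslAut Cfsg.Agent.H984.K547.Tool Cfsg.Agent.H984.K547.PslB
open Subgroup (zpowers mem_zpowers)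

universe u

variable {F : Type u} [Field F]

local notation "S2" => SpecialLinearGroup (Fin 2) F
local notation "P2" => ProjectiveSpecialLinearGroup (Fin 2) F

/-- the index of the inner automorphisms when `τ²` is inner -/
theorem card_autExt {S : Type u} [Group S] [Finite S] {τ : MulAut S} (h : τ ^ 2 ∈ (MulAut.conj : S →* MulAut S).range) :
    Nat.card (AutExt τ) ∣ Nat.card S * 2 := by
  set N := (MulAut.conj : S →* MulAut S).range with hN
  have h1 : N.relIndex (AutExt τ) = N.relIndex (zpowers τ) := by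
    change N.relIndex (N ⊔ zpowers τ) = _
    rw [sup_comm, Subgroup.relIndex_sup_right]
  have h2 : Nat.card N * N.relIndex (AutExt τ) = Nat.card (AutExt τ) := by
    rw [← Subgroup.relIndex_bot_left, ← Subgroup.relIndex_bot_left]
    exact Subgroup.relIndex_mul_relIndex ⊥ N (AutExt τ) bot_le le_sup_left
  have h3 : Nat.card N ∣ Nat.card S := Subgroup.card_range_dvd _
  have h4 : N.relIndex (zpowers τ) ∣ 2 := by
    have h5 : zpowers (τ ^ 2) ≤ N ⊓ zpowers τ := by
      rw [Subgroup.zpowers_le]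
      exact ⟨h, pow_mem (mem_zpowers τ) 2⟩
    have h6 : (N ⊓ zpowers τ).relIndex (zpowers τ) ∣ (zpowers (τ ^ 2)).relIndex (zpowers τ) :=
      Subgroup.relIndex_dvd_of_le_left _ h5
    rw [Subgroup.inf_relIndex_right] at h6
    refine h6.trans ?_
    have h7 : Nat.card (zpowers (τ ^ 2)) * (zpowers (τ ^ 2)).relIndex (zpowers τ) = Nat.card (zpowers τ) := by
      rw [← Subgroup.relIndex_bot_left, ← Subgroup.relIndex_bot_left]
      exact Subgroup.relIndex_mul_relIndex ⊥ (zpowers (τ ^ 2)) (zpowers τ) bot_le (h5.trans inf_le_right)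
    have hpos : 0 < orderOf τ := orderOf_pos τ
    rw [Nat.card_zpowers, Nat.card_zpowers, orderOf_pow] at h7
    have h8 : Nat.gcd (orderOf τ) 2 ∣ orderOf τ := Nat.gcd_dvd_left _ _
    have h9 : (zpowers (τ ^ 2)).relIndex (zpowers τ) = Nat.gcd (orderOf τ) 2 := by
      have h10 : orderOf τ / Nat.gcd (orderOf τ) 2 * Nat.gcd (orderOf τ) 2 = orderOf τ := Nat.div_mul_cancel h8
      have h11 : 0 < orderOf τ / Nat.gcd (orderOf τ) 2 :=
        Nat.div_pos (Nat.le_of_dvd hpos h8) (Nat.gcd_pos_of_pos_right _ (by norm_num))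
      exact Nat.eq_of_mul_eq_mul_left h11 (h7.trans h10.symm)
    rw [h9]
    exact Nat.gcd_dvd_right _ _
  rw [← h2, h1]
  exact mul_dvd_mul h3 h4

variable [Finite F]

theorem au_pow_one (A : GL (Fin 2) F) (n : ℕ) : au A 1 ^ n = (au (A ^ n) 1 : MulAut P2) := by
  induction n with
  | zero => rw [pow_zero, pow_zero, au_one]
  | succ n ih => rw [pow_succ, ih, au_mul, gm_one, one_mul, ← pow_succ]

theorem sq_mem_range (A : GL (Fin 2) F) : au A 1 ^ 2 ∈ (MulAut.conj : P2 →* MulAut P2).range := by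
  rw [au_pow_one]
  obtain ⟨g, hg⟩ := inner_of_sq (A := A ^ 2) (by
    rw [Units.val_pow_eq_pow_val, det_pow]
    exact ⟨_, pow_two _⟩) 1
  rw [hg, ← conj_pr]
  exact ⟨_, rfl⟩

/-- an element of order `2 ^ n` of `PGL₂(q)` outside `PSL₂(q)`, `2 ^ (n + 1)` the 2-part of `q² - 1` -/
theorem exists_elt (h4 : Nat.card F % 4 = 3) : ∃ (X : GL (Fin 2) F) (n : ℕ),
    ¬ IsSquare (X : Matrix (Fin 2) (Fin 2) F).det ∧ orderOf (au X 1 : MulAut P2) = 2 ^ n ∧
      ¬ 2 ^ (n + 2) ∣ Nat.card F ^ 2 - 1 := by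
  classical
  have h2 : Fact (Nat.Prime 2) := ⟨Nat.prime_two⟩
  obtain ⟨K, _, _, _, hK⟩ := H393.K547.exists_quad F
  have hfin : Module.Finite F K := Module.Finite.of_finite
  have hrank : Module.finrank F K = 2 := by
    have h1 := Module.natCard_eq_pow_finrank (K := F) (V := K)
    rw [hK] at h1
    exact (Nat.pow_right_injective (Finite.one_lt_card (α := F)) h1).symm
  let b : Module.Basis (Fin 2) F K := Module.finBasisOfFinrankEq F K hrank
  let φ : K →ₐ[F] Matrix (Fin 2) (Fin 2) F := Algebra.leftMulMatrix b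
  have hφ : Function.Injective φ := Algebra.leftMulMatrix_injective b
  -- numbers
  obtain ⟨c, hc⟩ : ∃ c, Nat.card F = 4 * c + 3 := ⟨Nat.card F / 4, by omega⟩
  have hKu : Nat.card Kˣ = Nat.card F ^ 2 - 1 := by rw [Nat.card_units, hK]
  have hpos : Nat.card F ^ 2 - 1 ≠ 0 := by
    have : 3 ^ 2 ≤ Nat.card F ^ 2 := Nat.pow_le_pow_left (by omega) 2
    omega
  have h8 : 2 ^ 3 ∣ Nat.card F ^ 2 - 1 := by
    refine ⟨(c + 1) * (2 * c + 1), ?_⟩
    have : Nat.card F ^ 2 = 2 ^ 3 * ((c + 1) * (2 * c + 1)) + 1 := by rw [hc]; ring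
    omega
  set m := (Nat.card F ^ 2 - 1).factorization 2 with hm
  have hm3 : 3 ≤ m := (Nat.prime_two.pow_dvd_iff_le_factorization hpos).1 h8
  have hd : 2 ^ m ∣ Nat.card F ^ 2 - 1 := Nat.ordProj_dvd _ _
  have hnd : ¬ 2 ^ (m + 1) ∣ Nat.card F ^ 2 - 1 := Nat.pow_succ_factorization_not_dvd hpos Nat.prime_two
  obtain ⟨n, hn⟩ : ∃ n, m = n + 1 := ⟨m - 1, by omega⟩
  obtain ⟨r, hr⟩ := hd
  have hr0 : r ≠ 0 := by
    rintro rfl
    rw [mul_zero] at hr
    exact hpos hr
  have hrodd : r % 2 = 1 := by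
    by_contra hcon
    apply hnd
    obtain ⟨s, hs⟩ : ∃ s, r = 2 * s := ⟨r / 2, by omega⟩
    rw [hr, hs, pow_succ]
    exact ⟨s, by ring⟩
  -- the element
  obtain ⟨g, hg⟩ := IsCyclic.exists_ofOrder_eq_natCard (α := Kˣ)
  have hμ : orderOf (g ^ r) = 2 ^ (n + 1) := by
    rw [orderOf_pow_of_dvd hr0 (by rw [hg, hKu, hr]; exact dvd_mul_left _ _), hg, hKu, hr,
      Nat.mul_div_cancel _ (Nat.pos_of_ne_zero hr0), hn]
  set μ : Kˣ := g ^ r with hμd
  let X : GL (Fin 2) F := Units.map (φ : K →* Matrix (Fin 2) (Fin 2) F) μ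
  have hX : ∀ j : ℕ, ((X ^ j : GL (Fin 2) F) : Matrix (Fin 2) (Fin 2) F) = φ ((μ : K) ^ j) := by
    intro j
    rw [Units.val_pow_eq_pow_val]
    change (φ (μ : K)) ^ j = _
    rw [map_pow]
  have hnd' : ¬ 2 ^ (n + 2) ∣ Nat.card F ^ 2 - 1 := by
    rw [hn] at hnd
    exact hnd
  refine ⟨X, n, ?_, ?_, hnd'⟩
  · -- the determinant
    have hdet : (X : Matrix (Fin 2) (Fin 2) F).det = (Algebra.norm F (g : K)) ^ r := by
      have h5 := hX 1
      rw [pow_one, pow_one] at h5
      rw [h5]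
      change (Algebra.leftMulMatrix b (μ : K)).det = _
      rw [← Algebra.norm_eq_matrix_det, hμd, Units.val_pow_eq_pow_val, map_pow]
    rw [hdet]
    rintro ⟨e, he⟩
    have hne : Algebra.norm F (g : K) ≠ 0 := Algebra.norm_ne_zero_iff.2 g.ne_zero
    have hsq : IsSquare (Algebra.norm F (g : K)) := by
      obtain ⟨t, ht⟩ : ∃ t, r = 2 * t + 1 := ⟨r / 2, by omega⟩
      refine ⟨e * ((Algebra.norm F (g : K)) ^ t)⁻¹, ?_⟩
      rw [ht, pow_succ, pow_mul'] at he
      have h6 : (Algebra.norm F (g : K)) ^ t ≠ 0 := pow_ne_zero _ hne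
      field_simp
      rw [pow_two e, ← he]
      ring
    -- every element would be a square
    have hF2 : ∃ a : F, ¬ IsSquare a := by
      have := Fintype.ofFinite F
      apply FiniteField.exists_nonsquare
      intro h
      have h5 := (FiniteField.even_card_iff_char_two (F := F)).1 h
      rw [← Nat.card_eq_fintype_card] at h5
      omega
    obtain ⟨a, ha⟩ := hF2
    have ha0 : a ≠ 0 := by rintro rfl; exact ha IsSquare.zero
    obtain ⟨y, hy⟩ := FiniteField.unitsMap_norm_surjective F K (Units.mk0 a ha0)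
    obtain ⟨j, hj⟩ := (IsCyclic.exists_ofOrder_eq_natCard (α := Kˣ)) |> fun _ =>
      (Subgroup.mem_zpowers_iff.1 (by
        have : zpowers g = ⊤ := Subgroup.eq_top_of_card_eq _ (by rw [Nat.card_zpowers, hg])
        rw [this]
        exact Subgroup.mem_top y : y ∈ zpowers g))
    apply ha
    have hy' : a = Algebra.norm F (y : K) := by
      have := congrArg Units.val hy
      exact this.symm
    have hj' : (Units.map (Algebra.norm F (S := K))) y = (Units.map (Algebra.norm F (S := K)) g) ^ j := by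
      rw [← hj, map_zpow]
    have hy2 : a = (Algebra.norm F (g : K)) ^ j := by
      have h7 := congrArg Units.val (hy.symm.trans hj')
      rw [Units.val_mk0, Units.val_zpow_eq_zpow_val] at h7
      exact h7
    rw [hy2]
    exact hsq.zpow j
  · -- the order
    obtain ⟨n', hn'⟩ : ∃ n', n = n' + 1 := ⟨n - 1, by omega⟩
    have hμ1 : ((μ : K) ^ 2 ^ n) ^ 2 = 1 := by
      rw [← pow_mul, ← pow_succ, ← Units.val_pow_eq_pow_val, ← hμ, pow_orderOf_eq_one, Units.val_one]
    have hμ2 : (μ : K) ^ 2 ^ n ≠ 1 := by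
      intro h
      have h5 : μ ^ 2 ^ n = 1 := Units.ext (by rw [Units.val_pow_eq_pow_val, h, Units.val_one])
      have h6 := orderOf_dvd_of_pow_eq_one h5
      rw [hμ] at h6
      have := (Nat.pow_dvd_pow_iff_le_right (by norm_num)).1 h6
      omega
    have hμ3 : (μ : K) ^ 2 ^ n = -1 := (mul_self_eq_one_iff.1 ((pow_two _).symm.trans hμ1)).resolve_left hμ2
    rw [hn']
    refine orderOf_eq_prime_pow ?_ ?_
    · rw [au_pow_one]
      intro h
      obtain ⟨⟨s, hs⟩, -⟩ := eq_one_of_au h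
      rw [hX] at hs
      have h5 : φ (algebraMap F K s) = scalar (Fin 2) s := by
        rw [AlgHom.commutes]
        rfl
      have h6 : algebraMap F K s = (μ : K) ^ 2 ^ n' := hφ (h5.trans hs)
      have h7 : s ^ 2 = -1 := by
        apply (algebraMap F K).injective
        rw [map_pow, h6, ← pow_mul, ← pow_succ, ← hn', hμ3, map_neg, map_one]
      have hs0 : s ≠ 0 := by
        rintro rfl
        rw [zero_pow two_ne_zero] at h7
        exact one_ne_zero (neg_eq_zero.1 h7.symm)
      have hm1 : (-1 : F) ≠ 1 := by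
        intro h8
        apply hμ2
        rw [hμ3]
        have := congrArg (algebraMap F K) h8
        rwa [map_neg, map_one] at this
      have h8 : orderOf (Units.mk0 s hs0) = 2 ^ (1 + 1) := by
        refine orderOf_eq_prime_pow ?_ ?_
        · intro h9
          have h10 := congrArg Units.val h9
          rw [Units.val_pow_eq_pow_val, Units.val_mk0, pow_one, Units.val_one, h7] at h10
          exact hm1 h10
        · apply Units.ext
          rw [Units.val_pow_eq_pow_val, Units.val_mk0, Units.val_one, pow_succ, pow_one, pow_mul, h7, neg_sq, one_pow]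
      have h9 := orderOf_dvd_natCard (Units.mk0 s hs0)
      rw [h8, Nat.card_units, hc] at h9
      omega
    · rw [au_pow_one, ← hn']
      have h5 : X ^ 2 ^ n = dg (-1) (-1) * 1 := by
        apply Units.ext
        rw [hX, hμ3, map_neg, map_one, mul_one, coe_dg]
        ext i j
        fin_cases i <;> fin_cases j <;> simp
      rw [h5, au_scalar, au_one]

/-- **`q ≡ 3` modulo 4, outside `PSL₂(q)`** -/
theorem not_d3_three (h4 : Nat.card F % 4 = 3) {A : GL (Fin 2) F}
    (hA : ¬ IsSquare (A : Matrix (Fin 2) (Fin 2) F).det) : ¬ D3 (AutExt (au A 1)) := by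
  obtain ⟨X, n, hX, hXo, hn⟩ := exists_elt h4
  have hA0 : (A : Matrix (Fin 2) (Fin 2) F).det ≠ 0 := by
    intro h
    rw [h] at hA
    exact hA IsSquare.zero
  obtain ⟨g, hg⟩ := exists_split A 1 (Units.mk0 _ hA0) ⟨1, by rw [Units.val_mk0]; ring⟩
  obtain ⟨g', hg'⟩ := exists_split X 1 (Units.mk0 _ hA0) (by rw [Units.val_mk0]; exact sq_of_nonsquare hX hA)
  have hmem : au X 1 ∈ AutExt (au A 1) := by
    have h1 : (au X 1 : MulAut P2) = MulAut.conj (pr g') * (MulAut.conj (pr g))⁻¹ * au A 1 := by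
      rw [hg', hg]
      group
    rw [h1]
    exact mul_mem (mul_mem (conj_mem _ _) (inv_mem (conj_mem _ _))) (self_mem _)
  refine not_d3_of_cyclic (⟨au X 1, hmem⟩ : AutExt (au A 1)) n (by rw [Subgroup.orderOf_mk, hXo]) fun h => ?_
  have := Fintype.ofFinite F
  have hodd : Odd (Fintype.card F) := by
    rw [← Nat.card_eq_fintype_card, Nat.odd_iff]
    omega
  have h2 := h.trans (card_autExt (sq_mem_range A))
  rw [Cfsg.Agent.ClassicalGeometry.PSL2Basic.card_PSL2_odd F hodd, ← Nat.card_eq_fintype_card] at h2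
  apply hn
  rw [mul_comm] at h2
  refine Nat.Coprime.dvd_of_dvd_mul_right (n := Nat.card F) ?_ h2
  apply Nat.Coprime.pow_left
  rw [Nat.coprime_two_left, Nat.odd_iff]
  omega

end Cfsg.Agent.H984.K547.PslC
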