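import Cfsg.Agent.H984.K547.PslInvA
import Cfsg.Agent.H984.K547.PslA
import Cfsg.Agent.H984.K547.PslC

/-!
# S4547: the row `PSL₂(q)`, `q` odd, `q ≥ 5` (task QE5o, helper984)

* `ext_psl2` : `ExtRow (PSL₂(q)) τ` for every outer automorphism `τ` of 2-power order modulo inner automorphisms;
* `row_psl2` : the row.
-/

set_option autoImplicit false

open Cfsg

namespace Cfsg.Agent.H984.K547.PslExt

open Matrix Cfsg.Agent.ClassicalGeometry.AutPSL.Root Cfsg.Agent.ClassicalGeometry.AutPSL.Auto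
open Cfsg.Agent.H821.K547 Cfsg.Agent.H984.K547.PslAut

universe u

variable {F : Type u} [Field F] [Finite F]

theorem mod_four_of_sq {q₀ : ℕ} (h : Nat.card F = q₀ ^ 2) (ho : Odd (Nat.card F)) : Nat.card F % 4 = 1 := by
  rw [h] at ho ⊢
  have h1 : Odd q₀ := by
    rcases Nat.even_or_odd q₀ with h2 | h2
    · exact absurd ho (Nat.not_odd_iff_even.2 (h2.pow_of_ne_zero two_ne_zero))
    · exact h2
  obtain ⟨c, rfl⟩ := h1
  have : (2 * c + 1) ^ 2 = 4 * (c * c + c) + 1 := by ring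
  omega

/-- **The outer automorphisms of `PSL₂(q)`, `q` odd.** -/
theorem ext_psl2 (ho : Odd (Nat.card F)) (h3 : 3 < Nat.card F)
    (τ : MulAut (Matrix.ProjectiveSpecialLinearGroup (Fin 2) F)) (hτ : TwoPow τ) (hn : ¬ IsInn τ) :
    ExtRow (Matrix.ProjectiveSpecialLinearGroup (Fin 2) F) τ := by
  classical
  obtain ⟨p, hpc⟩ := CharP.exists F
  have hp : Fact p.Prime := ⟨CharP.char_is_prime F p⟩
  obtain ⟨A, σ, rfl⟩ := exists_au p τ
  obtain ⟨k, hk⟩ := two_pow hτ
  by_cases hA : IsSquare (A : Matrix (Fin 2) (Fin 2) F).det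
  · have hσ : σ ≠ 1 := by
      rintro rfl
      apply hn
      obtain ⟨g, hg⟩ := inner_of_sq hA 1
      rw [hg, ← conj_pr]
      exact ⟨pr g, fun x => rfl⟩
    obtain ⟨q₀, hq⟩ := PslB.exists_sq hσ hk
    exact ⟨fun _ => PslA.d3_of_sq (mod_four_of_sq hq ho) hσ hk hA, fun _ => PslInvA.gInv3_of_sq ho h3 hτ hA⟩
  · have := Fintype.ofFinite F
    have h1 : ¬ GInv3 (au A σ) := PslInv.not_gInv3 hA
    have h2 : ¬ D3 (AutExt (au A σ)) := by
      have h4 : Nat.card F % 4 = 1 ∨ Nat.card F % 4 = 3 := by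
        have := Nat.odd_iff.1 ho
        omega
      rcases h4 with h4 | h4
      · exact PslB.not_d3_one h4 hk hA
      · have hσ : σ = 1 := by
          by_contra hσ
          obtain ⟨q₀, hq⟩ := PslB.exists_sq hσ hk
          have := mod_four_of_sq hq ho
          omega
        subst hσ
        exact PslC.not_d3_three h4 hA
    exact ⟨fun h => absurd h h1, fun h => absurd h h2⟩

/-- **The row.** -/
theorem row_psl2 (ho : Odd (Nat.card F)) (h3 : 3 < Nat.card F) :
    Row (Matrix.ProjectiveSpecialLinearGroup (Fin 2) F) := by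
  have := Fintype.ofFinite F
  refine ⟨Or.inr (H393.K547.xcond_psl2 ?_), ext_psl2 ho h3⟩
  exact (Cfsg.Agent.ClassicalGeometry.PSL2Basic.two_ne_zero_iff_odd F).2 (by rwa [← Nat.card_eq_fintype_card])

end Cfsg.Agent.H984.K547.PslExt
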