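import Cfsg.Agent.H984.K547.PslAut
import Cfsg.Agent.H670.SL2Odd
import Cfsg.Agent.H713.Van
import Cfsg.Agent.H601.K4.Lin

/-!
# Automorphisms of `PSL₂(q)`, `q` odd, outside `PΣL₂(q)`: at most two invariant characters of odd degree
(S4547, row PSL2(q), helper984)
-/

set_option autoImplicit false

open Cfsg

namespace Cfsg.Agent.H984.K547.PslInv

open Matrix Cfsg.Agent.ClassicalGeometry.AutPSL.Root Cfsg.Agent.ClassicalGeometry.AutPSL.Auto
open Cfsg.Agent.H821.K547 Cfsg.Agent.H601.K4 Cfsg.Agent.H984.K547.PslAut Cfsg.Agent.H670.SL2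
open Cfsg.Agent.Characters.Core
open Cfsg.Agent.H670.RankOne (psi)

universe u

variable {F : Type u} [Field F]

local notation "S2" => SpecialLinearGroup (Fin 2) F
local notation "P2" => ProjectiveSpecialLinearGroup (Fin 2) F

theorem cj_dg_x (d : Fˣ) (s : F) : cj (dg d 1) (x s) = x (d * s) := by
  apply Subtype.ext
  rw [coe_cj, dg_inv]
  change !![(d : F), 0; 0, ((1 : Fˣ) : F)] * !![1, s; 0, 1] * !![((d⁻¹ : Fˣ) : F), 0; 0, (((1 : Fˣ)⁻¹ : Fˣ) : F)] =
    !![1, d * s; 0, 1]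
  have := d.ne_zero
  ext i j
  fin_cases i <;> fin_cases j <;> simp [Matrix.mul_apply, Fin.sum_univ_two]

theorem fld_x (σ : F ≃+* F) : fld σ (x (1 : F)) = x 1 := by
  apply Subtype.ext
  ext i j
  rw [coe_fld_apply]
  change σ ((!![1, 1; 0, 1] : Matrix (Fin 2) (Fin 2) F) i j) = (!![1, 1; 0, 1] : Matrix (Fin 2) (Fin 2) F) i j
  fin_cases i <;> fin_cases j <;> simp

variable [Fintype F] [DecidableEq F]

theorem gs_ne_zero (hF : ringChar F ≠ 2) : gs F ≠ 0 := by
  intro h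
  have h1 := gs_sq (F := F) hF
  rw [h, zero_pow two_ne_zero] at h1
  have h2 : ((-1 : ℂ) ^ ((Fintype.card F - 1) / 2) * (Fintype.card F : ℂ)) ≠ 0 :=
    mul_ne_zero (pow_ne_zero _ (by norm_num)) (by exact_mod_cast Fintype.card_ne_zero)
  exact h2 h1.symm

theorem sum_sg_psi (d : Fˣ) : ∑ c : F, sg F c * psi F (d * c) = sg F ((d⁻¹ : Fˣ) : F) * gs F := by
  rw [gs_eq, Finset.mul_sum]
  refine Fintype.sum_equiv (Units.mulLeft d) _ _ fun c => ?_
  rw [Units.mulLeft_apply, ← mul_assoc, ← map_mul, ← mul_assoc, ← Units.val_mul, inv_mul_cancel, Units.val_one,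
    one_mul]

/-- equal values on the two classes: the type is symmetric -/
theorem n_eq {d : Fˣ} (hd : ¬ IsSquare (d : F)) (χ : IrrCharacter S2)
    (h : (χ : S2 → ℂ) (x (d : F)) = (χ : S2 → ℂ) (x 1)) : (data F).n χ 1 = (data F).n χ d := by
  rw [apply_x hd, apply_x hd, if_neg d.ne_zero, if_neg one_ne_zero, sum_sg_psi] at h
  have h1 : ∑ c : F, sg F c * psi F (1 * c) = gs F := by
    rw [gs_eq]
    simp only [one_mul]
  have h2 : sg F ((d⁻¹ : Fˣ) : F) = -1 := by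
    apply sg_of_not_square
    intro h3
    apply hd
    have h4 := h3.inv
    rwa [Units.val_inv_eq_inv_val, inv_inv] at h4
  rw [h1, h2] at h
  have h3 : ((data F).n χ 1 - (data F).n χ d : ℂ) * gs F = 0 := by linear_combination -h
  rcases mul_eq_zero.1 h3 with h4 | h4
  · exact_mod_cast sub_eq_zero.1 h4
  · exact absurd h4 (gs_ne_zero (char_ne_two hd))

/-- symmetric types of odd degree -/
theorem ty_cases {d : Fˣ} (hd : ¬ IsSquare (d : F)) (χ : IrrCharacter S2) (ho : ¬ 2 ∣ charDegree (χ : S2 → ℂ))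
    (h : (data F).n χ 1 = (data F).n χ d) : ty (d : F) χ = (1, 0, 0) ∨ ty (d : F) χ = (1, 1, 1) := by
  have h1 := ty_mem hd χ
  have hodd : Fintype.card F % 2 = 1 := FiniteField.odd_card_of_char_ne_two (char_ne_two hd)
  obtain ⟨m, hm⟩ : ∃ m, Fintype.card F = 2 * m + 1 := ⟨Fintype.card F / 2, by omega⟩
  have h2 := degree_eq_ty hd χ hm
  have h3 : (charDegree (χ : S2 → ℂ) : ℂ) = (χ : S2 → ℂ) 1 :=
    Cfsg.Agent.H601.K4.charDegree_eq (Cfsg.Agent.Characters.Core.isIrr_isCharacter χ.2)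
  rw [h2] at h3
  have h4 : charDegree (χ : S2 → ℂ) = (ty (d : F) χ).1 + m * ((ty (d : F) χ).2.1 + (ty (d : F) χ).2.2) := by
    exact_mod_cast h3
  have h5 : (ty (d : F) χ).2.1 = (ty (d : F) χ).2.2 := h
  rw [h4] at ho
  simp only [tys, Finset.mem_insert, Finset.mem_singleton] at h1
  rcases h1 with h1 | h1 | h1 | h1 | h1 | h1 | h1 | h1 <;> rw [h1] at ho h5
  · exact absurd ⟨1 + m, by ring⟩ ho
  · exact Or.inl h1
  · exact absurd h5 (by norm_num)
  · exact absurd h5 (by norm_num)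
  · exact Or.inr h1
  · exact absurd ⟨m, by ring⟩ ho
  · exact absurd h5 (by norm_num)
  · exact absurd h5 (by norm_num)

/-- two characters of the same symmetric type are equal -/
theorem eq_of_ty {d : Fˣ} (hd : ¬ IsSquare (d : F)) {χ χ' : IrrCharacter S2}
    (h : (ty (d : F) χ = (1, 0, 0) ∧ ty (d : F) χ' = (1, 0, 0)) ∨
      (ty (d : F) χ = (1, 1, 1) ∧ ty (d : F) χ' = (1, 1, 1))) : χ = χ' := by
  classical
  have := finite_irr (G := S2)
  have : Fintype (IrrCharacter S2) := Fintype.ofFinite _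
  have hodd : Fintype.card F % 2 = 1 := FiniteField.odd_card_of_char_ne_two (char_ne_two hd)
  obtain ⟨m, hm⟩ : ∃ m, Fintype.card F = 2 * m + 1 := ⟨Fintype.card F / 2, by omega⟩
  obtain ⟨-, c1, -, -, c2, -, -, -⟩ := counts hd hm
  have key : ∀ p, N (d : F) p = 1 → ty (d : F) χ = p → ty (d : F) χ' = p → χ = χ' := by
    intro p hp h1 h2
    obtain ⟨a, ha⟩ := Finset.card_eq_one.1 hp
    have m1 : χ ∈ ({a} : Finset (IrrCharacter S2)) := by
      rw [← ha, Finset.mem_filter]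
      exact ⟨Finset.mem_univ _, h1⟩
    have m2 : χ' ∈ ({a} : Finset (IrrCharacter S2)) := by
      rw [← ha, Finset.mem_filter]
      exact ⟨Finset.mem_univ _, h2⟩
    rw [Finset.mem_singleton] at m1 m2
    rw [m1, m2]
  rcases h with ⟨h1, h2⟩ | ⟨h1, h2⟩
  · exact key _ c1 h1 h2
  · exact key _ c2 h1 h2

/-- **At most two invariant characters.** -/
theorem not_gInv3 {A : GL (Fin 2) F} {σ : F ≃+* F} (hA : ¬ IsSquare (A : Matrix (Fin 2) (Fin 2) F).det) :
    ¬ GInv3 (au A σ) := by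
  classical
  rintro ⟨χ, hinj, hχ⟩
  have h0 : (A : Matrix (Fin 2) (Fin 2) F).det ≠ 0 := by
    intro h
    rw [h] at hA
    exact hA IsSquare.zero
  set d : Fˣ := Units.mk0 _ h0 with hd'
  have hd : ¬ IsSquare (d : F) := hA
  obtain ⟨g, hg⟩ := exists_split A σ d ⟨1, by rw [hd', Units.val_mk0]; ring⟩
  have hpull : ∀ i, IsIrrCharacter S2 (fun y => χ i (pr y)) := fun i =>
    isIrr_comp (pr : S2 →* P2) pr_surjective (hχ i).1.odd.1
  let θ : Fin 3 → IrrCharacter S2 := fun i => ⟨fun y => χ i (pr y), hpull i⟩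
  have hθ : ∀ i (y : S2), (θ i : S2 → ℂ) y = χ i (pr y) := fun i y => rfl
  have hθinj : Function.Injective θ := by
    intro i j hij
    apply hinj
    funext y
    obtain ⟨y, rfl⟩ := pr_surjective y
    rw [← hθ, ← hθ, hij]
  have hty : ∀ i, ty (d : F) (θ i) = (1, 0, 0) ∨ ty (d : F) (θ i) = (1, 1, 1) := by
    intro i
    refine ty_cases hd (θ i) ?_ (n_eq hd (θ i) ?_)
    · intro h2
      apply (hχ i).1.odd.2
      have h3 : (charDegree (θ i : S2 → ℂ) : ℂ) = (charDegree (χ i) : ℂ) := by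
        rw [Cfsg.Agent.H601.K4.charDegree_eq (isIrr_isCharacter (θ i).2),
          Cfsg.Agent.H601.K4.charDegree_eq (isIrr_isCharacter (hχ i).1.odd.1), hθ, map_one]
      have h4 : charDegree (θ i : S2 → ℂ) = charDegree (χ i) := by exact_mod_cast h3
      rw [← h4]
      exact h2
    · rw [hθ, hθ]
      have h3 := (hχ i).2 (pr (x 1))
      rw [hg, MulAut.mul_apply, au_pr, fld_x, cj_dg_x, mul_one, MulAut.conj_apply] at h3
      rw [← h3]
      exact (isIrr_isClassFunction (hχ i).1.odd.1 (pr (x (d : F))) (pr g)).symm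
  have h01 : θ 0 ≠ θ 1 := fun h => absurd (hθinj h) (by decide)
  have h02 : θ 0 ≠ θ 2 := fun h => absurd (hθinj h) (by decide)
  have h12 : θ 1 ≠ θ 2 := fun h => absurd (hθinj h) (by decide)
  rcases hty 0 with a | a <;> rcases hty 1 with b | b <;> rcases hty 2 with c | c
  · exact h01 (eq_of_ty hd (Or.inl ⟨a, b⟩))
  · exact h01 (eq_of_ty hd (Or.inl ⟨a, b⟩))
  · exact h02 (eq_of_ty hd (Or.inl ⟨a, c⟩))
  · exact h12 (eq_of_ty hd (Or.inr ⟨b, c⟩))
  · exact h12 (eq_of_ty hd (Or.inl ⟨b, c⟩))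
  · exact h02 (eq_of_ty hd (Or.inr ⟨a, c⟩))
  · exact h01 (eq_of_ty hd (Or.inr ⟨a, b⟩))
  · exact h01 (eq_of_ty hd (Or.inr ⟨a, b⟩))

end Cfsg.Agent.H984.K547.PslInv
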