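import Cfsg.Agent.H984.K547.PslInv
import Cfsg.Agent.H601.K4.InvClass

/-!
# `PΣL₂(q)`: three invariant good characters (S4547, row PSL2(q), helper984)
-/

set_option autoImplicit false
set_option linter.unusedSectionVars false

open scoped ComplexConjugate Classical
open Cfsg

namespace Cfsg.Agent.H984.K547.PslInvA

section engine

open CoxeterSystem Cfsg.Agent.ChevalleyStructure.CoxeterGeom Cfsg.Agent.Tits.Roots Cfsg.Agent.Tits.Core
  Cfsg.Agent.Tits.RootComb Cfsg.Agent.Nodes.Comb Cfsg.Agent.Nodes.Reps Cfsg.Agent.Nodes.BNOf Cfsg.Agent.FixBN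
  Cfsg.Agent.Nodes.StabComb Cfsg.Agent.Characters Cfsg.Agent.Characters.Core
  Cfsg.Agent.OddOrderCharacters.Clifford Cfsg.Agent.H618.Sigma
open Cfsg.Agent.Omega.ML.Ex.Typ Cfsg.Agent.Tits.OppRes Cfsg.Agent.H612.BNCosets Cfsg.Agent.H612.BNAut
open Cfsg.Agent.H601.K4

universe u

variable {G : Type u} [Group G] [Fintype G] {l : ℕ} {M : CoxeterMatrix (Fin l)} {p : ℕ} {P : Cfsg.BNPair G}
  {U : Subgroup G} {e : Fin l ≃ P.S} [Fintype U] [Fintype P.B] {θ : U →* ℂˣ} {St : G → ℂ}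

/-- three invariant good characters for one automorphism which stabilises a class of `p`-elements -/
theorem inv3_single [Fact p.Prime] (D : DatP M p P U e θ St) {x : G} (hxp : ∃ m : ℕ, x ^ p ^ m = 1)
    (hx1 : x ≠ 1) (τ : MulAut G) (hτ : ∃ (k : ℕ) (s : G), ∀ x, (τ ^ 2 ^ k) x = s * x * s⁻¹)
    (hcl : ∃ g : G, τ x = g * x * g⁻¹) :
    ∃ χ : Fin 3 → G → ℂ, Function.Injective χ ∧ ∀ i, Good (χ i) ∧ ∀ x, χ i (τ x) = χ i x := by
  classical
  obtain ⟨k, hk⟩ := H740.K4.exists_cube G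
  obtain ⟨Q, hQ⟩ := H612.CharTwo.exists_sylow D.split
  have hpx : IsPGroup p (Subgroup.zpowers x) := by
    obtain ⟨m, hm⟩ := hxp
    rintro ⟨_, n, rfl⟩
    refine ⟨m, Subtype.ext ?_⟩
    show (x ^ n) ^ p ^ m = 1
    rw [← zpow_natCast, ← zpow_mul, mul_comm, zpow_mul, zpow_natCast, hm, one_zpow]
  obtain ⟨Q', hQ'⟩ := hpx.exists_le_sylow
  obtain ⟨a, ha⟩ := MulAction.exists_smul_eq G Q' Q
  have hmem : ∀ y ∈ Subgroup.zpowers x, a * y * a⁻¹ ∈ U := by
    intro y hy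
    rw [← hQ, ← ha]
    exact ⟨y, hQ' hy, rfl⟩
  have gst : Good St := H740.K4.good_of hk D.odd.1
    ⟨D.real, odd_iff.2 D.odd.2, st_pow D.dat hk D.odd.1 D.stθ D.stB⟩
  have h0 : ∀ y ∈ Subgroup.zpowers x, y ≠ 1 → St y = 0 := by
    intro y hy hy1
    have h1 := isIrr_isClassFunction D.odd.1 y a
    rw [← h1, D.stU _ (hmem y hy), if_neg]
    intro h2
    apply hy1
    have h3 : y = a⁻¹ * (a * y * a⁻¹) * a := by group
    rw [h3, h2]
    group
  have hodd : Odd (orderOf x) := by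
    have h1 := hmem x (Subgroup.mem_zpowers x)
    have h2 : orderOf (a * x * a⁻¹) = orderOf x := by
      have := orderOf_injective (MulAut.conj a).toMonoidHom (MulAut.conj a).injective x
      simpa using this
    have h3 : orderOf (⟨a * x * a⁻¹, h1⟩ : U) = orderOf (a * x * a⁻¹) := by rw [Subgroup.orderOf_mk]
    rw [← h2, ← h3]
    exact D.dat.odd.of_dvd_nat (orderOf_dvd_natCard _)
  obtain ⟨g, hg⟩ := hcl
  have hev : Even (Nat.card G) := by
    rw [← Subgroup.card_mul_index P.B]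
    exact (even_iff_two_dvd.2 D.dat.even).mul_left _
  exact inv3_of_elt hev gst τ hτ (D.st_aut τ) hx1 hodd hg h0

/-- **The family version.** -/
theorem gInv3_of_class {S : Type u} [Group S] [Finite S] [IsSimpleGroup S] {p : ℕ} (hp : p.Prime) (hp2 : p ≠ 2) {l : ℕ}
    {M : CoxeterMatrix (Fin l)} (j : Fin l) (h : HasRGDT p M S) {x : S} (hxp : ∃ m : ℕ, x ^ p ^ m = 1) (hx1 : x ≠ 1)
    (τ : MulAut S) (hτ : H821.K547.TwoPow τ) (hcl : ∃ g : S, τ x = g * x * g⁻¹) : H821.K547.GInv3 τ := by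
  classical
  have := Fintype.ofFinite S
  have : Fact p.Prime := ⟨hp⟩
  obtain ⟨A, h, T, n, X, hW, R, hX⟩ := h
  have hgen : RGD.B M.toCoxeterSystem h T X ⊔ NN M.toCoxeterSystem R.nsys = ⊤ := by
    rw [eq_top_iff, ← hX]
    exact Nodes.RGDLib.rgd_G1_le R
  obtain ⟨U, _, _, θ, St, D⟩ := exists_datP_gen hp hp2 R hX hgen j
  exact inv3_single D hxp hx1 τ hτ hcl

end engine

open Matrix Cfsg.Agent.ClassicalGeometry.AutPSL.Root Cfsg.Agent.ClassicalGeometry.AutPSL.Auto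
open Cfsg.Agent.H821.K547 Cfsg.Agent.H984.K547.PslAut Cfsg.Agent.H670.SL2 Cfsg.Agent.H984.K547.PslInv
open Cfsg.Agent.Omega.ML.Ex.Typ

universe u

variable {F : Type u} [Field F] [Finite F]

local notation "S2" => SpecialLinearGroup (Fin 2) F
local notation "P2" => ProjectiveSpecialLinearGroup (Fin 2) F

theorem x_pow (s : F) (n : ℕ) : x s ^ n = x (n * s) := by
  induction n with
  | zero =>
    rw [pow_zero, Nat.cast_zero, zero_mul]
    apply Subtype.ext
    change (1 : Matrix (Fin 2) (Fin 2) F) = !![1, 0; 0, 1]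
    ext i j
    fin_cases i <;> fin_cases j <;> simp
  | succ n ih =>
    rw [pow_succ, ih]
    apply Subtype.ext
    change !![1, (n : F) * s; 0, 1] * !![1, s; 0, 1] = !![1, ((n + 1 : ℕ) : F) * s; 0, 1]
    ext i j
    fin_cases i <;> fin_cases j <;> simp [Matrix.mul_apply, Fin.sum_univ_two]
    ring

theorem pr_x_ne_one : (pr (x (1 : F)) : P2) ≠ 1 := by
  intro h
  have h1 : (x (1 : F)) ∈ Subgroup.center S2 := (QuotientGroup.eq_one_iff _).1 h
  rw [Matrix.SpecialLinearGroup.mem_center_iff] at h1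
  obtain ⟨r, -, hr⟩ := h1
  have h2 := congrFun (congrFun hr 0) 1
  simp [coe_x] at h2

/-- **Three invariant characters for `PΣL₂(q)`** -/
theorem gInv3_of_sq (ho : Odd (Nat.card F)) (h3 : 3 < Nat.card F) {A : GL (Fin 2) F} {σ : F ≃+* F}
    (hτ : TwoPow (au A σ)) (hA : IsSquare (A : Matrix (Fin 2) (Fin 2) F).det) : GInv3 (au A σ) := by
  obtain ⟨p, hpc⟩ := CharP.exists F
  have hp : p.Prime := CharP.char_is_prime F p
  have hpf : Fact p.Prime := ⟨hp⟩
  have hp2 : p ≠ 2 := by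
    rintro rfl
    have := Fintype.ofFinite F
    have h1 : 2 ∣ Nat.card F := by
      rw [Nat.card_eq_fintype_card]
      exact (CharP.cast_eq_zero_iff F 2 _).1 (by simp)
    exact (Nat.not_even_iff_odd.2 ho) (even_iff_two_dvd.2 h1)
  have hsim : IsSimpleGroup P2 := Matrix.ProjectiveSpecialLinearGroup.rank_two_simple h3
  refine gInv3_of_class hp hp2 (0 : Fin 1) (typ_PSL 1 (p := p)) (x := pr (x (1 : F))) ⟨1, ?_⟩ pr_x_ne_one _ hτ ?_
  · rw [pow_one, ← map_pow, x_pow, CharP.cast_eq_zero, zero_mul]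
    have h1 : (x (0 : F)) = 1 := by
      have := x_pow (0 : F) 0
      rw [pow_zero, Nat.cast_zero, zero_mul] at this
      exact this.symm
    rw [h1, map_one]
  · obtain ⟨g, hg⟩ := inner_of_sq hA σ
    refine ⟨pr g, ?_⟩
    rw [hg, au_pr, fld_x, cj_tg, MulAut.conj_apply, map_mul, map_mul, map_inv]

end Cfsg.Agent.H984.K547.PslInvA
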